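import Mathlib
import Cfsg.Agent.TIB.Bas

/-! A class of abelian, non-elementary `TI`-subgroups: adjacent pairs and the key lemma. -/

set_option autoImplicit false

namespace Cfsg.Agent.TIB

open Subgroup Cfsg.Agent.PLocal.Amb

variable {G : Type*} [Group G]

/-- The setting: a conjugacy class of abelian `TI` `2`-subgroups, non-cyclic and non-elementary, with
normalizers maximal `2`-local of characteristic `2`. -/
structure Sys (S : Set (Subgroup G)) : Prop where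
  cj : ∀ A ∈ S, ∀ g, cj(g, A) ∈ S
  tr : ∀ A ∈ S, ∀ B ∈ S, ∃ g, cj(g, A) = B
  comm : ∀ A ∈ S, ∀ a ∈ A, ∀ b ∈ A, Commute a b
  pg : ∀ A ∈ S, IsPGroup 2 A
  ti : ∀ A ∈ S, ∀ B ∈ S, ∀ x ∈ A, x ∈ B → x ≠ 1 → A = B
  four : ∀ A ∈ S, ∃ a ∈ A, a * a ≠ 1
  rk : ∀ A ∈ S, ∃ x ∈ A, ∃ y ∈ A, x * x = 1 ∧ y * y = 1 ∧ x ≠ 1 ∧ y ≠ 1 ∧ x ≠ y
  ch : ∀ A ∈ S, 𝐂[pCoreOf 2 𝐍[A]] ≤ pCoreOf 2 𝐍[A]
  max : ∀ A ∈ S, ∀ U : Subgroup G, IsPGroup 2 U → U ≠ ⊥ → 𝐍[A] ≤ 𝐍[U] → 𝐍[U] ≤ 𝐍[A]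

/-- elementwise commuting subgroups -/
def Com (A B : Subgroup G) : Prop := ∀ a ∈ A, ∀ b ∈ B, Commute a b

theorem Com.symm {A B : Subgroup G} (h : Com A B) : Com B A := fun b hb a ha => (h a ha b hb).symm

theorem Com.cj {A B : Subgroup G} (h : Com A B) (g : G) : Com cj(g, A) cj(g, B) := fun a ha b hb => by
  obtain ⟨a', ha', rfl⟩ := exists_cn ha
  obtain ⟨b', hb', rfl⟩ := exists_cn hb
  exact comm_cn.2 (h _ ha' _ hb')

/-- `A₁ = N_A(B)` and `B₁ = N_B(A)` for a non-commuting adjacent pair -/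
structure Pre (A B A₁ B₁ : Subgroup G) : Prop where
  leA : A₁ ≤ A
  leB : B₁ ≤ B
  sqA : ∀ v ∈ A₁, v * v = 1
  sqB : ∀ z ∈ B₁, z * z = 1
  cm : Com A₁ B₁
  frA : ∀ a ∈ A, ∀ z ∈ B, z ≠ 1 → Commute a z → a ∈ A₁
  frB : ∀ b ∈ B, ∀ v ∈ A, v ≠ 1 → Commute b v → b ∈ B₁
  actA : ∀ a ∈ A, ∀ z ∈ B₁, ∃ v ∈ A₁, cn a z = z * v
  actB : ∀ b ∈ B, ∀ v ∈ A₁, ∃ z ∈ B₁, cn b v = v * z
  sA : ∀ a ∈ A, a * a ∈ A₁
  sB : ∀ b ∈ B, b * b ∈ B₁
  exA : ∃ v ∈ A₁, v ≠ 1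
  exB : ∃ z ∈ B₁, z ≠ 1
  dis : ∀ x ∈ A, x ∈ B → x = 1
  nA : ∃ a ∈ A, a ∉ A₁
  nB : ∃ b ∈ B, b ∉ B₁

namespace Pre

variable {A B A₁ B₁ : Subgroup G} (h : Pre A B A₁ B₁)
include h

theorem symm : Pre B A B₁ A₁ :=
  ⟨h.leB, h.leA, h.sqB, h.sqA, h.cm.symm, h.frB, h.frA, h.actB, h.actA, h.sB, h.sA, h.exB, h.exA,
    fun x hx hx' => h.dis x hx' hx, h.nB, h.nA⟩

theorem inj {a z z' v : G} (ha : a ∈ A) (a1 : a ∉ A₁) (hz : z ∈ B₁) (hz' : z' ∈ B₁) (hv : v ∈ A₁)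
    (e : cn a z = z * v) (e' : cn a z' = z' * v) : z = z' := by
  by_contra n
  refine a1 (h.frA a ha _ (h.leB (mul_mem hz hz')) (mul_ne_one (h.sqB z hz) n) (comm_of_cn ?_))
  rw [cn_mul, e, e', (h.cm v hv z' hz').mul_mul_mul_comm, h.sqA v hv, mul_one]

theorem card_le [Finite G] : Nat.card B₁ ≤ Nat.card A₁ := by
  obtain ⟨a, ha, a1⟩ := h.nA
  exact card_le_rel (fun z v => z ∈ B₁ ∧ v ∈ A₁ ∧ cn a z = z * v)
    (fun z hz => by obtain ⟨v, hv, e⟩ := h.actA a ha z hz; exact ⟨v, hv, hz, hv, e⟩)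
    fun z _ z' _ v e e' => h.inj ha a1 e.1 e'.1 e.2.1 e.2.2 e'.2.2

theorem surj [Finite G] {a v : G} (ha : a ∈ A) (a1 : a ∉ A₁) (hv : v ∈ A₁) :
    ∃ z ∈ B₁, cn a z = z * v := by
  obtain ⟨z, hz, -, -, e⟩ := surj_rel h.symm.card_le (fun z v => z ∈ B₁ ∧ v ∈ A₁ ∧ cn a z = z * v)
    (fun z hz => by obtain ⟨v, hv, e⟩ := h.actA a ha z hz; exact ⟨v, hv, hz, hv, e⟩)
    (fun z _ z' _ v e e' => h.inj ha a1 e.1 e'.1 e.2.1 e.2.2 e'.2.2) v hv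
  exact ⟨z, hz, e⟩

end Pre

namespace Sys

variable {S : Set (Subgroup G)} (s : Sys S) {A B : Subgroup G}
include s

theorem mem_N_of (hA : A ∈ S) {a g : G} (ha : a ∈ A) (a1 : a ≠ 1) (h : Commute g a) : g ∈ 𝐍[A] :=
  cj_eq_iff.1 (s.ti _ (s.cj A hA g) _ hA a (by rw [← cn_eq h]; exact cn_mem_cj.2 ha) ha a1)

theorem two (hA : A ∈ S) {a : G} (ha : a ∈ A) : ∃ k, a ^ 2 ^ k = 1 := isPGroup_iff.1 (s.pg A hA) a ha

theorem le_N (hA : A ∈ S) (h : Com B A) : B ≤ 𝐍[A] := fun b hb => by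
  obtain ⟨a, ha, a1⟩ := s.four A hA
  exact s.mem_N_of hA ha (by rintro rfl; simp at a1) (h b hb a ha)

theorem comm_N (hA : A ∈ S) (hB : B ∈ S) {a b : G} (ha : a ∈ A) (hb : b ∈ B) (aN : a ∈ 𝐍[B])
    (bN : b ∈ 𝐍[A]) : Commute a b := by
  by_cases e : A = B
  · exact s.comm A hA a ha b (e ▸ hb)
  by_contra n
  exact e (s.ti A hA B hB (cn a b * b⁻¹) (cn_swap (a := a) ▸ mul_mem ha (inv_mem (cn_mem bN ha)))
    (mul_mem (cn_mem aN hb) (inv_mem hb)) fun e => n (comm_of_cn (mul_inv_eq_one.1 e)))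

variable [Finite G]

theorem comm_four (hA : A ∈ S) (hB : B ∈ S) {a : G} (ha : a ∈ A) (a2 : a * a ≠ 1) (aN : a ∈ 𝐍[B]) :
    ∀ b ∈ B, Commute a b := fun b hb => by
  by_contra n
  obtain ⟨b, hb, w, w1, w2, e, c⟩ := exists_move (s.pg B hB) (s.comm B hB) (s.two hA ha) aN hb n
  have : Commute b (a * a) :=
    (comm_of_cn (by rw [mul_cn, e, cn_mul, e, cn_eq c, mul_assoc, w2, mul_one])).symm
  have := cn_eq (s.comm_N hA hB ha hb aN (s.mem_N_of hA (mul_mem ha ha) a2 this))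
  exact w1 (left_eq_mul.1 (this.symm.trans e))

theorem com_of_four (hA : A ∈ S) (hB : B ∈ S) {a : G} (ha : a ∈ A) (a2 : a * a ≠ 1)
    (aN : a ∈ 𝐍[B]) : Com A B := by
  have h1 : B ≤ 𝐍[A] := fun b hb =>
    s.mem_N_of hA ha (by rintro rfl; simp at a2) (s.comm_four hA hB ha a2 aN b hb).symm
  obtain ⟨b, hb, b2⟩ := s.four B hB
  exact fun a' ha' b' hb' => s.comm_N hA hB ha' hb' (s.mem_N_of hB hb (by rintro rfl; simp at b2)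
    (s.comm_four hB hA hb b2 (h1 hb) a' ha').symm) (h1 hb')

/-- a point centralizing a nontrivial element of another one centralizes it -/
theorem com_of (hA : A ∈ S) (hB : B ∈ S) {z : G} (hz : z ∈ B) (z1 : z ≠ 1)
    (h : ∀ a ∈ A, Commute a z) : Com A B := by
  obtain ⟨a, ha, a2⟩ := s.four A hA
  exact s.com_of_four hA hB ha a2 (s.mem_N_of hB hz z1 (h a ha))

theorem sq_N (hA : A ∈ S) (hB : B ∈ S) (n : ¬ Com A B) {a : G} (ha : a ∈ A) (aN : a ∈ 𝐍[B]) :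
    a * a = 1 := by
  by_contra a2
  exact n (s.com_of_four hA hB ha a2 aN)

theorem exists_two (hA : A ∈ S) (hB : B ∈ S) (n : ¬ Com A B) {a : G} (ha : a ∈ A) (a1 : a ≠ 1)
    (aN : a ∈ 𝐍[B]) : ∃ z ∈ B, ∃ z' ∈ B, z ∈ 𝐍[A] ∧ z' ∈ 𝐍[A] ∧ z ≠ 1 ∧ z' ≠ 1 ∧ z ≠ z' := by
  by_contra hc
  have a2 := s.sq_N hA hB n ha aN
  have N : ∀ b ∈ B, cn a b = b → b ∈ 𝐍[A] := fun b _ e => s.mem_N_of hA ha a1 (comm_of_cn e).symm
  have u1 : ∀ z ∈ B, ∀ z' ∈ B, z ∈ 𝐍[A] → z' ∈ 𝐍[A] → z ≠ 1 → z' ≠ 1 → z = z' :=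
    fun z hz z' hz' h1 h2 h3 h4 => by
      by_contra h5
      exact hc ⟨z, hz, z', hz', h1, h2, h3, h4, h5⟩
  have sq : ∀ b ∈ B, b ∈ 𝐍[A] → b * b = 1 := fun b hb => s.sq_N hB hA (fun e => n e.symm) hb
  have tr : ∀ b ∈ B, b * cn a b ∈ 𝐍[A] := fun b hb => N _ (mul_mem hb (cn_mem aN hb)) (by
    rw [cn_mul, cn_invol a2, (s.comm B hB _ hb _ (cn_mem aN hb)).eq])
  obtain ⟨b, hb, b2⟩ := s.four B hB
  obtain ⟨m, m1, m2⟩ := exists_invol (s.two hB (mul_mem hb hb)) b2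
  obtain ⟨u, hu, u2, u4⟩ : ∃ u ∈ B, u * u ≠ 1 ∧ u * u * (u * u) = 1 :=
    ⟨b ^ m, pow_mem hb m, by rwa [← (Commute.refl b).mul_pow], by rwa [← (Commute.refl b).mul_pow]⟩
  obtain ⟨z, hz, z2, zN⟩ : ∃ z ∈ B, z * z = 1 ∧ z ∉ 𝐍[A] := by
    obtain ⟨x, hx, y, hy, x2, y2, x1, y1, xy⟩ := s.rk B hB
    by_cases h1 : x ∈ 𝐍[A]
    · exact ⟨y, hy, y2, fun h2 => xy (u1 x hx y hy h1 h2 x1 y1)⟩
    · exact ⟨x, hx, x2, h1⟩
  have c := s.comm B hB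
  have hu' := cn_mem aN hu
  have hz' := cn_mem aN hz
  have e1 : cn a (u * u) = u * u := by
    have := sq _ (mul_mem hu hu') (tr u hu)
    rw [sq_mul (c _ hu _ hu'), ← cn_mul] at this
    exact (eq_of_mul_eq_one u4 this).symm
  have e2 : z * cn a z = u * u := u1 _ (mul_mem hz hz') _ (mul_mem hu hu) (tr z hz)
    (N _ (mul_mem hu hu) e1) (mul_ne_one z2 fun e => zN (N z hz e.symm)) u2
  by_cases e3 : u * cn a u = 1
  · refine u2 ?_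
    have := sq _ (mul_mem hu hz) (N _ (mul_mem hu hz) (by
      rw [cn_mul, ← inv_eq_of_mul_eq_one_right e3, eq_inv_mul_of_mul_eq e2, inv_of_sq z2,
        (c z hz _ (mul_mem hu hu)).eq]; group))
    rwa [sq_mul (c u hu z hz), z2, mul_one] at this
  · exact u2 (sq u hu (N u hu (mul_left_cancel (u1 _ (mul_mem hu hu') _ (mul_mem hu hu) (tr u hu)
      (N _ (mul_mem hu hu) e1) e3 u2))))

theorem half (hA : A ∈ S) (hB : B ∈ S) (n : ¬ Com A B) {a a' : G} (ha : a ∈ A) (ha' : a' ∈ A)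
    (aN : a ∈ 𝐍[B]) (aN' : a' ∈ 𝐍[B]) (a1 : a ≠ 1) (a1' : a' ≠ 1) (ne : a ≠ a') :
    (∀ b ∈ B, b * b ∈ B ⊓ 𝐍[A]) ∧ ∀ b ∈ B, ∀ v ∈ A ⊓ 𝐍[B], ∃ z ∈ B ⊓ 𝐍[A], cn b v = v * z := by
  have c := s.comm B hB
  have tr : ∀ v ∈ A ⊓ 𝐍[B], v ≠ 1 → ∀ b ∈ B, b * cn v b ∈ 𝐍[A] := fun v hv v1 b hb =>
    s.mem_N_of hA hv.1 v1 (comm_of_cn (by
      rw [cn_mul, cn_invol (s.sq_N hA hB n hv.1 hv.2), (c _ hb _ (cn_mem hv.2 hb)).eq])).symm
  have iv : ∀ v ∈ A ⊓ 𝐍[B], v ≠ 1 → ∀ b ∈ B, cn v (b * b) = (b * b)⁻¹ := fun v hv v1 b hb => by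
    have := s.sq_N hB hA (fun e => n e.symm) (mul_mem hb (cn_mem hv.2 hb)) (tr v hv v1 b hb)
    rw [sq_mul (c _ hb _ (cn_mem hv.2 hb)), ← cn_mul] at this
    exact eq_inv_of_mul_eq_one_right this
  have h1 : ∀ b ∈ B, b * b ∈ B ⊓ 𝐍[A] := fun b hb => ⟨mul_mem hb hb,
    s.mem_N_of hA (mul_mem ha ha') (mul_ne_one (s.sq_N hA hB n ha aN) ne) (comm_of_cn (by
      rw [mul_cn, iv a' ⟨ha', aN'⟩ a1' b hb, cn_inv, iv a ⟨ha, aN⟩ a1 b hb, inv_inv])).symm⟩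
  refine ⟨h1, fun b hb v hv => ?_⟩
  by_cases v1 : v = 1
  · exact ⟨1, one_mem _, by simp [v1]⟩
  have v2 := s.sq_N hA hB n hv.1 hv.2
  refine ⟨cn v b * b⁻¹, mem_inf.2 ⟨mul_mem (cn_mem hv.2 hb) (inv_mem hb), ?_⟩, ?_⟩
  · have := mul_mem (inv_mem (mem_inf.1 (h1 b hb)).2) (tr v hv v1 b hb)
    rwa [show (b * b)⁻¹ * (b * cn v b) = b⁻¹ * cn v b by group,
      (c _ (inv_mem hb) _ (cn_mem hv.2 hb)).eq] at this
  · rw [cn, cn, inv_of_sq v2, ← mul_assoc, ← mul_assoc, ← mul_assoc, v2, one_mul]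

theorem pre (hA : A ∈ S) (hB : B ∈ S) (n : ¬ Com A B) {a : G} (ha : a ∈ A) (a1 : a ≠ 1)
    (aN : a ∈ 𝐍[B]) : Pre A B (A ⊓ 𝐍[B]) (B ⊓ 𝐍[A]) := by
  have n' : ¬ Com B A := fun e => n e.symm
  obtain ⟨z, hz, z', hz', zN, zN', z1, z1', zz⟩ := s.exists_two hA hB n ha a1 aN
  obtain ⟨v, hv, v', hv', vN, vN', v1, v1', vv⟩ := s.exists_two hB hA n' hz z1 zN
  obtain ⟨h1, h2⟩ := s.half hA hB n hv hv' vN vN' v1 v1' vv
  obtain ⟨h3, h4⟩ := s.half hB hA n' hz hz' zN zN' z1 z1' zz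
  obtain ⟨x, hx, x2⟩ := s.four A hA
  obtain ⟨y, hy, y2⟩ := s.four B hB
  exact ⟨inf_le_left, inf_le_left, fun v hv => s.sq_N hA hB n hv.1 hv.2,
    fun v hv => s.sq_N hB hA n' hv.1 hv.2, fun v hv z hz => s.comm_N hA hB hv.1 hz.1 hv.2 hz.2,
    fun a ha z hz z1 c => ⟨ha, s.mem_N_of hB hz z1 c⟩,
    fun a ha z hz z1 c => ⟨ha, s.mem_N_of hA hz z1 c⟩, h4, h2, h3, h1, ⟨a, ⟨ha, aN⟩, a1⟩,
    ⟨z, ⟨hz, zN⟩, z1⟩, fun x hx hx' => by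
      by_contra x1
      exact n (s.ti A hA B hB x hx hx' x1 ▸ s.comm A hA),
    ⟨x, hx, fun e => x2 (s.sq_N hA hB n hx e.2)⟩, ⟨y, hy, fun e => y2 (s.sq_N hB hA n' hy e.2)⟩⟩

omit s [Finite G] in
theorem tri {v z e v' z' e' : G} (h1 : Commute z v') (h2 : Commute e v') (h3 : Commute e z') :
    v * z * e * (v' * z' * e') = v * v' * (z * z') * (e * e') := by
  rw [(h2.mul_right h3).mul_mul_mul_comm, h1.mul_mul_mul_comm]

theorem key (hA : A ∈ S) (hB : B ∈ S) {A₁ B₁ : Subgroup G} (h : Pre A B A₁ B₁) {a w : G} (ha : a ∈ A)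
    (a1 : a ∉ A₁) (w1 : ∀ z ∈ B₁, Commute w z)
    (w2 : ∀ v ∈ A₁, ∃ z ∈ B₁, ∃ e ∈ 𝐂[A] ⊓ 𝐂[B], Commute w e ∧ cn w v = v * z * e)
    (w4 : ∃ v ∈ A₁, ¬ ∀ x ∈ A, Commute x (cn w v)) :
    ∃ g ∈ closure {a, w}, (∀ v ∈ A₁, cn w v * v ∈ cj(g, A)) ∧ (∀ v ∈ A₁, cn (cn g a) v = cn w v) ∧
      ∀ z ∈ B₁, cn (cn g a) z = z := by
  have cA := s.comm A hA
  have cB := s.comm B hB
  have eA : ∀ e ∈ 𝐂[A] ⊓ 𝐂[B], ∀ v ∈ A₁, Commute e v := fun e he v hv => mem_C.1 he.1 v (h.leA hv)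
  have eB : ∀ e ∈ 𝐂[A] ⊓ 𝐂[B], ∀ v ∈ B₁, Commute e v := fun e he v hv => mem_C.1 he.2 v (h.leB hv)
  have e2 : ∀ v ∈ A₁, ∀ z ∈ B₁, ∀ e ∈ 𝐂[A] ⊓ 𝐂[B], cn w v = v * z * e → e * e = 1 :=
    fun v hv z hz e he q => by
      have := (sq_cn (g := w)).2 (h.sqA v hv)
      rwa [q, tri (h.cm v hv z hz).symm (eA e he v hv) (eB e he z hz), h.sqA v hv, h.sqB z hz,
        one_mul, one_mul] at this
  let E : Subgroup G :=
    { carrier := {e | e ∈ 𝐂[A] ⊓ 𝐂[B] ∧ Commute w e ∧ ∃ v ∈ A₁, ∃ z ∈ B₁, cn w v = v * z * e}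
      one_mem' := ⟨one_mem _, Commute.one_right w, 1, one_mem _, 1, one_mem _, by simp⟩
      mul_mem' := fun ⟨he, c, v, hv, z, hz, q⟩ ⟨he', c', v', hv', z', hz', q'⟩ =>
        ⟨mul_mem he he', c.mul_right c', _, mul_mem hv hv', _, mul_mem hz hz', by
          rw [cn_mul, q, q', tri (h.cm v' hv' z hz).symm (eA _ he v' hv') (eB _ he z' hz')]⟩
      inv_mem' := fun ⟨he, c, v, hv, z, hz, q⟩ => by
        rw [inv_of_sq (e2 v hv z hz _ he q)]; exact ⟨he, c, v, hv, z, hz, q⟩ }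
  let U : Subgroup G :=
    { carrier := {u | ∃ v ∈ A₁, ∃ z ∈ B₁, ∃ e ∈ E, u = v * z * e}
      one_mem' := ⟨1, one_mem _, 1, one_mem _, 1, one_mem _, by simp⟩
      mul_mem' := by
        rintro _ _ ⟨v, hv, z, hz, e, he, rfl⟩ ⟨v', hv', z', hz', e', he', rfl⟩
        exact ⟨_, mul_mem hv hv', _, mul_mem hz hz', _, mul_mem he he',
          tri (h.cm v' hv' z hz).symm (eA _ he.1 v' hv') (eB _ he.1 z' hz')⟩
      inv_mem' := by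
        rintro _ ⟨v, hv, z, hz, e, he, rfl⟩
        refine ⟨_, inv_mem hv, _, inv_mem hz, _, inv_mem he, ?_⟩
        rw [← ((eA _ he.1 v hv).mul_right (eB _ he.1 z hz)).eq, (h.cm v hv z hz).eq]; group }
  have w2' : ∀ v ∈ A₁, ∃ z ∈ B₁, ∃ e ∈ E, cn w v = v * z * e := fun v hv => by
    obtain ⟨z, hz, e, he, c, q⟩ := w2 v hv
    exact ⟨z, hz, e, ⟨he, c, v, hv, z, hz, q⟩, q⟩
  have AU : ∀ v ∈ A₁, v ∈ U := fun v hv => ⟨v, hv, 1, one_mem _, 1, one_mem _, by simp⟩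
  have BU : ∀ v ∈ B₁, v ∈ U := fun v hv => ⟨1, one_mem _, v, hv, 1, one_mem _, by simp⟩
  have inj : ∀ v ∈ A₁, ∀ e ∈ E, cn w v = v * e → v = 1 := fun v hv e he q => by
    by_contra v1
    obtain ⟨v', hv', n⟩ := w4
    exact n fun x hx => s.com_of hA (s.cj A hA w) (cn_mem_cj.2 (h.leA hv)) (by simpa using v1)
      (fun x hx => q ▸ (cA x hx v (h.leA hv)).mul_right (mem_C.1 he.1.1 x hx).symm) x hx _
      (cn_mem_cj.2 (h.leA hv'))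
  have UA : ∀ x ∈ A, ∀ u ∈ U, ∃ v ∈ A₁, cn x u = u * v := by
    rintro x hx _ ⟨v, hv, z, hz, e, he, rfl⟩
    obtain ⟨v', hv', q⟩ := h.actA x hx z hz
    refine ⟨v', hv', ?_⟩
    rw [cn_mul, cn_mul, q, cn_eq (cA x hx v (h.leA hv)), cn_eq (mem_C.1 he.1.1 x hx).symm,
      ← mul_assoc, mul_assoc, ← (eA e he.1 v' hv').eq, mul_assoc, mul_assoc, mul_assoc]
  have na : a ∈ 𝐍[U] := mem_N fun u hu => by
    obtain ⟨v, hv, q⟩ := UA a ha u hu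
    exact q ▸ mul_mem hu (AU v hv)
  have nw : w ∈ 𝐍[U] := mem_N (by
    rintro _ ⟨v, hv, z, hz, e, he, rfl⟩
    obtain ⟨z', hz', e', he', q⟩ := w2' v hv
    rw [cn_mul, cn_mul, q, cn_eq (w1 z hz), cn_eq he.2.1]
    exact mul_mem (mul_mem ⟨v, hv, z', hz', e', he', rfl⟩ (BU z hz))
      ⟨1, one_mem _, 1, one_mem _, e, he, by simp⟩)
  have nU : closure {a, w} ≤ 𝐍[U] := (closure_le _).2 (by rintro _ (rfl | rfl) <;> assumption)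
  have cE : ∀ x ∈ closure {a, w}, ∀ e ∈ E, cn x e = e := fun x hx e he => cn_eq (mem_C.1 ((show
    closure {a, w} ≤ 𝐂[E] from (closure_le _).2 (by
      rintro _ (rfl | rfl)
      exacts [mem_C.2 fun e he => (mem_C.1 he.1.1 _ ha).symm, mem_C.2 fun e he => he.2.1])) hx) e he)
  have ext : ∀ x ∈ closure {a, w}, (∀ v ∈ A₁, cn x v = v) → (∀ z ∈ B₁, cn x z = z) → Eqv U x 1 := by
    rintro x hx h1 h2 _ ⟨v, hv, z, hz, e, he, rfl⟩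
    rw [one_cn, cn_mul, cn_mul, h1 v hv, h2 z hz, cE x hx e he]
  have ma : a ∈ closure ({a, w} : Set G) := subset_closure (by simp)
  have mw : w ∈ closure ({a, w} : Set G) := subset_closure (by simp)
  have fx : ∀ g ∈ closure {a, w}, ∀ u ∈ U, cn (cn g a) u = u → ∀ x ∈ cj(g, A), Commute x u :=
    fun g hg u hu q x hx => by
      obtain ⟨x', hx', rfl⟩ := exists_cn hx
      obtain ⟨v, hv, z, hz, e, he, q'⟩ := cn_mem (inv_mem (nU hg)) hu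
      rw [← cn_inv_cn g u, cn_cn_cn, cn_inj, q', cn_mul, cn_mul, cn_eq (cA a ha v (h.leA hv)),
        cn_eq (mem_C.1 he.1.1 a ha).symm, mul_left_inj, mul_right_inj] at q
      obtain rfl : z = 1 := by
        by_contra z1
        exact a1 (h.frA a ha z (h.leB hz) z1 (comm_of_cn q))
      rw [← cn_inv_cn g u, comm_cn, q', mul_one]
      exact (cA x' hx' v (h.leA hv)).mul_right (mem_C.1 he.1.1 x' hx').symm
  rcases dih na nw (ext _ (mul_mem ma ma) (fun v hv => cn_eq (cA _ (mul_mem ha ha) v (h.leA hv)))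
      fun z hz => cn_eq (h.cm _ (h.sA a ha) z hz))
    (ext _ (mul_mem mw mw) (fun v hv => by
      obtain ⟨z, hz, e, he, q⟩ := w2' v hv
      rw [mul_cn, q, cn_mul, cn_mul, q, cn_eq (w1 z hz), cn_eq he.2.1, mul_assoc (v * z * e),
        ← one_mul z, tri (Commute.one_right _) (Commute.one_right _) (eB e he.1 z hz), one_mul,
        h.sqB z hz, e2 v hv z hz e he.1 q, mul_one, mul_one, mul_one])
      fun z hz => by rw [mul_cn, cn_eq (w1 z hz), cn_eq (w1 z hz)]) with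
    ⟨g, hg, q⟩ | ⟨t, ht, g, hg, t1, t2, ta, tw, q⟩
  · refine ⟨g, hg, fun v hv => ?_, fun v hv => q v (AU v hv), fun z hz => by
      rw [q z (BU z hz), cn_eq (w1 z hz)]⟩
    obtain ⟨v', hv', q'⟩ := UA a ha _ (cn_mem (inv_mem (nU hg)) (AU v hv))
    rw [← q v (AU v hv), cn_cn, q', cn_mul, cn_inv_cn, ((show Commute v (cn g v') from ?_)).eq,
      mul_assoc, h.sqA v hv, mul_one]
    · exact cn_mem_cj.2 (h.leA hv')
    · have := (sq_cn (g := cn g a)).2 (h.sqA v hv)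
      rw [cn_cn, q', cn_mul, cn_inv_cn] at this
      exact comm_of_sq (h.sqA v hv) (sq_cn.2 (h.sqA v' hv')) this
  exfalso
  have tA : ∀ v ∈ A₁, cn t v ∈ A₁ := fun v hv => by
    obtain ⟨z, hz, q⟩ := h.surj ha a1 hv
    obtain ⟨v', hv', q'⟩ := UA a ha _ (cn_mem (nU ht) (BU z hz))
    have := ta z (BU z hz)
    rw [mul_cn, mul_cn, q, q', cn_mul, mul_right_inj] at this
    exact this ▸ hv'
  obtain ⟨v₀, hv₀, v1, tv⟩ : ∃ v ∈ A₁, v ≠ 1 ∧ cn t v = v := by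
    obtain ⟨v, hv, v1⟩ := h.exA
    by_cases e : v = cn t v
    · exact ⟨v, hv, v1, e.symm⟩
    refine ⟨_, mul_mem hv (tA v hv), mul_ne_one (h.sqA v hv) e, ?_⟩
    rw [cn_mul, ← mul_cn, t2 v (AU v hv), one_cn, (cA _ (h.leA hv) _ (h.leA (tA v hv))).eq]
  have tw' : ∀ v ∈ A₁, cn t (cn w v) = cn w (cn t v) := fun v hv => by
    rw [← mul_cn, tw v (AU v hv), mul_cn]
  rcases q with q | q
  · have c := s.com_of (s.cj A hA g) hA (h.leA hv₀) v1 (fx g hg _ (AU _ hv₀) (by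
      rw [q _ (AU _ hv₀), mul_cn, cn_eq (cA a ha _ (h.leA hv₀)), tv]))
    have h1 : ∀ v ∈ A₁, cn t v = v := fun v hv => by
      have := q v (AU v hv)
      rwa [cn_eq (c _ (cn_mem_cj.2 ha) v (h.leA hv)), mul_cn, cn_eq (cA a ha v (h.leA hv)),
        eq_comm] at this
    refine t1 (ext t ht h1 fun z hz => ?_)
    obtain ⟨v, hv, -, -, e, he, q⟩ := surj_rel h.card_le
      (fun v z => v ∈ A₁ ∧ z ∈ B₁ ∧ ∃ e ∈ E, cn w v = v * z * e)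
      (fun v hv => by obtain ⟨z, hz, e, he, q⟩ := w2' v hv; exact ⟨z, hz, hv, hz, e, he, q⟩)
      (fun v hv v' hv' z ⟨_, hz, e, he, q⟩ ⟨_, _, e', he', q'⟩ => eq_of_mul_eq_one (h.sqA v hv)
        (inj _ (mul_mem hv hv') _ (mul_mem he he') (by
          rw [cn_mul, q, q', tri (h.cm v' hv' z hz).symm (eA _ he.1 v' hv') (eB _ he.1 z hz),
            h.sqB z hz, mul_one]))) z hz
    have := tw' v hv
    rwa [h1 v hv, q, cn_mul, cn_mul, h1 v hv, cE t ht e he, mul_left_inj, mul_right_inj] at this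
  · obtain ⟨z, hz, e, he, q₀⟩ := w2' v₀ hv₀
    have z1 : z ≠ 1 := by
      rintro rfl
      exact v1 (inj _ hv₀ e he (by simpa using q₀))
    have tz : cn t z = z := by
      have := tw' v₀ hv₀
      rwa [tv, q₀, cn_mul, cn_mul, tv, cE t ht e he, mul_left_inj, mul_right_inj] at this
    have c := s.com_of (s.cj A hA g) hB (h.leB hz) z1 (fx g hg _ (BU _ hz) (by
      rw [q _ (BU _ hz), mul_cn, cn_eq (w1 z hz), tz]))
    have h1 : ∀ z ∈ B₁, cn t z = z := fun z hz => by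
      have := q z (BU z hz)
      rwa [cn_eq (c _ (cn_mem_cj.2 ha) z (h.leB hz)), mul_cn, cn_eq (w1 z hz), eq_comm] at this
    refine t1 (ext t ht (fun v hv => ?_) h1)
    obtain ⟨z, hz, e, he, q⟩ := w2' v hv
    have := tw' v hv
    rw [q, cn_mul, cn_mul, h1 z hz, cE t ht e he] at this
    refine (eq_of_mul_eq_one (h.sqA v hv) (inj _ (mul_mem hv (tA v hv)) 1 (one_mem _) ?_)).symm
    rw [cn_mul, ← this, q, tri (h.cm _ (tA v hv) z hz).symm (eA _ he.1 _ (tA v hv)) (eB _ he.1 z hz),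
      h.sqB z hz, e2 v hv z hz e he.1 q, mul_one]

end Sys

end Cfsg.Agent.TIB
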