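import Mathlib
import Cfsg.Agent.TIB.Key

/-! Non-commuting adjacent pairs. -/

set_option autoImplicit false

namespace Cfsg.Agent.TIB

open Subgroup Cfsg.Agent.PLocal.Amb

variable {G : Type*} [Group G]

/-- the central involutions of `A`, with `1` -/
def Om (A : Subgroup G) : Subgroup G where
  carrier := {a | a ∈ A ∧ a * a = 1 ∧ ∀ b ∈ A, Commute a b}
  one_mem' := ⟨one_mem _, mul_one _, fun b _ => Commute.one_left b⟩
  mul_mem' := fun ha hb => ⟨mul_mem ha.1 hb.1, sq_mul_one (ha.2.2 _ hb.1) ha.2.1 hb.2.1,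
    fun c hc => (ha.2.2 c hc).mul_left (hb.2.2 c hc)⟩
  inv_mem' := fun ha => by rw [inv_of_sq ha.2.1]; exact ha

theorem cn_mem_Om {g v : G} {A : Subgroup G} (h : v ∈ Om A) : cn g v ∈ Om cj(g, A) :=
  ⟨cn_mem_cj.2 h.1, sq_cn.2 h.2.1, fun b hb => by
    obtain ⟨b', hb', rfl⟩ := exists_cn hb
    exact comm_cn.2 (h.2.2 _ hb')⟩

theorem Om_cj (g : G) (A : Subgroup G) : Om cj(g, A) = cj(g, Om A) :=
  le_antisymm (fun v hv => mem_cj'.2 (by simpa only [cj_inv_cj] using cn_mem_Om (g := g⁻¹) hv))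
    fun v hv => by
      obtain ⟨v', hv', rfl⟩ := exists_cn hv
      exact cn_mem_Om hv'

theorem cn_Om {g v : G} {A : Subgroup G} (hg : g ∈ 𝐍[A]) (h : v ∈ Om A) : cn g v ∈ Om A := by
  simpa only [cj_of_mem_normalizer hg] using cn_mem_Om (g := g) h

/-- the subgroups generated by the involutions commute -/
def Adj (A B : Subgroup G) : Prop := Com (Om A) (Om B)

theorem Adj.symm {A B : Subgroup G} (h : Adj A B) : Adj B A := Com.symm h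

theorem Com.adj {A B : Subgroup G} (h : Com A B) : Adj A B := fun a ha b hb => h a ha.1 b hb.1

theorem Adj.cj {A B : Subgroup G} (h : Adj A B) (g : G) : Adj cj(g, A) cj(g, B) := by
  rw [Adj, Om_cj, Om_cj]; exact Com.cj h g

/-- non-commuting adjacent points -/
structure Sim (S : Set (Subgroup G)) (A B : Subgroup G) : Prop where
  mA : A ∈ S
  mB : B ∈ S
  adj : Adj A B
  nc : ¬ Com A B

theorem Sim.symm {S : Set (Subgroup G)} {A B : Subgroup G} (h : Sim S A B) : Sim S B A :=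
  ⟨h.mB, h.mA, h.adj.symm, fun e => h.nc e.symm⟩

namespace Sys

variable {S : Set (Subgroup G)} (s : Sys S) {A B : Subgroup G}
include s

theorem om (hA : A ∈ S) {a : G} (ha : a ∈ A) (a2 : a * a = 1) : a ∈ Om A := ⟨ha, a2, s.comm A hA a ha⟩

theorem exOm (hA : A ∈ S) : ∃ v ∈ Om A, v ≠ 1 := by
  obtain ⟨x, hx, -, -, x2, -, x1, -⟩ := s.rk A hA
  exact ⟨x, s.om hA hx x2, x1⟩

theorem exN (hA : A ∈ S) : ∃ a ∈ A, a ∉ Om A := by
  obtain ⟨a, ha, a2⟩ := s.four A hA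
  exact ⟨a, ha, fun e => a2 e.2.1⟩

theorem sim_cj (h : Sim S A B) (g : G) : Sim S cj(g, A) cj(g, B) :=
  ⟨s.cj A h.mA g, s.cj B h.mB g, h.adj.cj g, fun e => h.nc (by simpa only [cj_inv_cj] using e.cj g⁻¹)⟩

theorem sim_cj' (h : Sim S A B) {g : G} (hg : g ∈ 𝐍[B]) : Sim S cj(g, A) B := by
  simpa only [cj_of_mem_normalizer hg] using s.sim_cj h g

theorem card_Om (hA : A ∈ S) (hB : B ∈ S) : Nat.card (Om A) = Nat.card (Om B) := by
  obtain ⟨g, rfl⟩ := s.tr A hA B hB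
  rw [Om_cj, card_cj]

theorem adj_N (hB : B ∈ S) (h : Adj A B) : Om A ≤ 𝐍[B] := fun v hv => by
  obtain ⟨z, hz, z1⟩ := s.exOm hB
  exact s.mem_N_of hB hz.1 z1 (h v hv z hz)

theorem C_Om (hB : B ∈ S) {w : G} (h : ∀ z ∈ Om B, Commute w z) : w ∈ 𝐍[B] := by
  obtain ⟨z, hz, z1⟩ := s.exOm hB
  exact s.mem_N_of hB hz.1 z1 (h z hz)

variable [Finite G]

theorem pre_conj (hA : A ∈ S) (hB : B ∈ S) {A₁ B₁ : Subgroup G} (h : Pre A B A₁ B₁) {a b : G}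
    (ha : a ∈ A) (a1 : a ∉ A₁) (hb : b ∈ B) (b1 : b ∉ B₁) :
    ∃ g ∈ closure {a, b}, cj(g, A) = B ∧ (a * a = 1 ↔ b * b = 1) := by
  obtain ⟨v, hv, v1⟩ := h.exA
  obtain ⟨z, hz, q⟩ := h.actB b hb v hv
  have z1 : z ≠ 1 := by
    rintro rfl
    exact b1 (h.frB b hb v (h.leA hv) v1 (comm_of_cn (by simpa using q)))
  obtain ⟨g, hg, h1, h2, -⟩ := s.key hA hB h ha a1 (w := b) (fun z hz => s.comm B hB b hb z (h.leB hz))
    (fun v hv => by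
      obtain ⟨z, hz, q⟩ := h.actB b hb v hv
      exact ⟨z, hz, 1, one_mem _, Commute.one_right b, by simpa using q⟩)
    ⟨v, hv, fun e => a1 (h.frA a ha z (h.leB hz) z1 (by
      have := (s.comm A hA a ha v (h.leA hv)).inv_right.mul_right (e a ha)
      rwa [q, inv_mul_cancel_left] at this))⟩
  have e : cj(g, A) = B := s.ti _ (s.cj A hA g) _ hB z (by
    have := h1 v hv
    rwa [q, (h.cm v hv z hz).eq, mul_assoc, h.sqA v hv, mul_one] at this) (h.leB hz) z1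
  have hp : cn g a ∈ B := e ▸ cn_mem_cj.2 ha
  have := h.sqB _ (h.frB _ (mul_mem (inv_mem hb) hp) v (h.leA hv) v1 (comm_of_cn (by
    rw [mul_cn, h2 v hv, inv_cn])))
  rw [sq_mul (s.comm B hB _ (inv_mem hb) _ hp), ← mul_inv_rev, inv_mul_eq_one] at this
  exact ⟨g, hg, e, by rw [this, sq_cn]⟩

theorem pre_om (hA : A ∈ S) (hB : B ∈ S) {A₁ B₁ : Subgroup G} (h : Pre A B A₁ B₁) : B₁ = Om B := by
  refine le_antisymm (fun z hz => s.om hB (h.leB hz) (h.sqB z hz)) fun b hb => ?_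
  by_contra b1
  obtain ⟨a, ha, a2⟩ := s.four A hA
  obtain ⟨g, -, -, e⟩ := s.pre_conj hA hB h ha (fun e => a2 (h.sqA a e)) hb.1 b1
  exact a2 (e.2 hb.2.1)

theorem pre' (hA : A ∈ S) (hB : B ∈ S) (n : ¬ Com A B) {a : G} (ha : a ∈ A) (a1 : a ≠ 1)
    (aN : a ∈ 𝐍[B]) : Pre A B (Om A) (Om B) := by
  have h := s.pre hA hB n ha a1 aN
  rwa [s.pre_om hA hB h, s.pre_om hB hA h.symm] at h

theorem adj_of (hA : A ∈ S) (hB : B ∈ S) {a : G} (ha : a ∈ A) (a1 : a ≠ 1) (aN : a ∈ 𝐍[B]) :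
    Adj A B := by
  by_cases n : Com A B
  · exact n.adj
  · exact (s.pre' hA hB n ha a1 aN).cm

theorem adj_of_comm (hA : A ∈ S) (hB : B ∈ S) {a b : G} (ha : a ∈ A) (hb : b ∈ B) (a1 : a ≠ 1)
    (b1 : b ≠ 1) (c : Commute a b) : Adj A B := s.adj_of hA hB ha a1 (s.mem_N_of hB hb b1 c)

theorem sp (h : Sim S A B) : Pre A B (Om A) (Om B) := by
  obtain ⟨v, hv, v1⟩ := s.exOm h.mA
  exact s.pre' h.mA h.mB h.nc hv.1 v1 (s.adj_N h.mB h.adj hv)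

theorem conjAB (h : Sim S A B) {a b : G} (ha : a ∈ A) (a1 : a ∉ Om A) (hb : b ∈ B) (b1 : b ∉ Om B) :
    ∃ g ∈ closure {a, b}, cj(g, A) = B :=
  (s.pre_conj h.mA h.mB (s.sp h) ha a1 hb b1).imp fun _ e => ⟨e.1, e.2.1⟩

/-- an element of `A` fixing a nontrivial element of `B` is an involution -/
theorem fr (h : Sim S A B) {a z : G} (ha : a ∈ A) (a1 : a ∉ Om A) (hz : z ∈ B) (c : Commute a z) :
    z = 1 := by
  by_contra z1
  exact a1 ((s.sp h).frA a ha z hz z1 c)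

theorem actO (h : Sim S A B) {v b : G} (hv : v ∈ Om A) (hb : b ∈ B) : ∃ z ∈ Om B, cn v b = b * z := by
  obtain ⟨z, hz, q⟩ := (s.sp h).actB b hb v hv
  exact ⟨z, hz, by rw [cn_flip q (h.adj v hv z hz), inv_of_sq hz.2.1, (hz.2.2 b hb).eq]⟩

theorem kB (h : Sim S A B) {x b : G} (hx : ∀ z ∈ Om B, Commute x z) (hb : b ∈ B) :
    ∃ z ∈ Om B, cn x b = b * z := by
  have hb' := cn_mem (s.C_Om h.mB hx) hb
  refine ⟨b⁻¹ * cn x b, s.om h.mB (mul_mem (inv_mem hb) hb') ?_, by group⟩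
  rw [sq_mul (s.comm B h.mB _ (inv_mem hb) _ hb'), ← cn_mul, cn_eq (hx _ ((s.sp h).sB b hb))]
  group

theorem kcomm (h : Sim S A B) {x y b : G} (hx : ∀ z ∈ Om B, Commute x z) (hy : ∀ z ∈ Om B, Commute y z)
    (hb : b ∈ B) : cn x (cn y b) = cn y (cn x b) := by
  obtain ⟨z, hz, q⟩ := s.kB h hx hb
  obtain ⟨z', hz', q'⟩ := s.kB h hy hb
  rw [q, q', cn_mul, cn_mul, q, q', cn_eq (hx z' hz'), cn_eq (hy z hz), mul_assoc, mul_assoc,
    (hz.2.2 z' hz'.1).eq]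

theorem ksq (h : Sim S A B) {x b : G} (hx : ∀ z ∈ Om B, Commute x z) (hb : b ∈ B) :
    cn x (cn x b) = b := by
  obtain ⟨z, hz, q⟩ := s.kB h hx hb
  rw [q, cn_mul, q, cn_eq (hx z hz), mul_assoc, hz.2.1, mul_one]

theorem kcn (h : Sim S A B) {x y b : G} (hx : ∀ z ∈ Om B, Commute x z) (hy : ∀ z ∈ Om B, Commute y z)
    (hb : b ∈ B) : cn (cn x y) b = cn y b := by
  rw [cn_cn, s.kcomm h hx hy (cn_mem (inv_mem (s.C_Om h.mB hx)) hb), cn_inv_cn]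

/-- an element normalizing `A` and centralizing the involutions of `B` centralizes those of `A` -/
theorem cent_Om (h : Sim S A B) {x : G} (xA : x ∈ 𝐍[A]) (hx : ∀ z ∈ Om B, Commute x z) :
    ∀ v ∈ Om A, Commute x v := fun v hv => by
  obtain ⟨b, hb, b1⟩ := s.exN h.mB
  have hv' := cn_Om xA hv
  refine comm_of_cn (eq_of_mul_eq_one hv'.2.1 (s.fr h.symm hb b1 (mul_mem hv'.1 hv.1) (comm_of_cn ?_).symm))
  rw [mul_cn, s.kcn h hx (h.adj v hv) (cn_mem (s.adj_N h.mB h.adj hv) hb), cn_invol hv.2.1]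

theorem cent (h : Sim S A B) {c v : G} (hc : c ∈ 𝐂[B]) (hv : v ∈ Om A) (v1 : v ≠ 1) (cv : Commute c v) :
    ∃ z ∈ Om B, ∃ e ∈ 𝐂[A] ⊓ 𝐂[B], c = z * e := by
  have cN := s.mem_N_of h.mA hv.1 v1 cv
  have cO : ∀ z ∈ Om B, Commute c z := fun z hz => mem_C.1 hc z hz.1
  have cA := s.cent_Om h cN cO
  obtain ⟨a, ha, a1⟩ := s.exN h.mA
  obtain ⟨b, hb, b1⟩ := s.exN h.mB
  obtain ⟨u, hu, q⟩ := s.kB h.symm cA ha
  obtain ⟨z, hz, q'⟩ := (s.sp h).surj ha a1 hu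
  have e1 : z * c ∈ 𝐂[B] := mul_mem (mem_C.2 hz.2.2) hc
  have e2 : Commute (z * c) a := comm_of_cn (by
    rw [mul_cn, q, cn_mul, cn_flip q' (h.adj u hu z hz).symm, cn_eq (h.adj u hu z hz).symm,
      inv_of_sq hu.2.1, (hu.2.2 a ha).eq, mul_assoc, hu.2.1, mul_one])
  obtain ⟨g, hg, e⟩ := s.conjAB h ha a1 hb b1
  have e3 : Commute (z * c) g := mem_C.1 ((show closure {a, b} ≤ 𝐂[zpowers (z * c)] from
    (closure_le _).2 (by
      rintro _ (rfl | rfl)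
      exacts [mem_C.2 fun _ ⟨k, hk⟩ => hk ▸ e2.symm.zpow_right k,
        mem_C.2 fun _ ⟨k, hk⟩ => hk ▸ (mem_C.1 e1 _ hb).symm.zpow_right k])) hg) _
          (mem_zpowers _) |>.symm
  refine ⟨z, hz, z * c, ⟨mem_C.2 fun x hx => ?_, e1⟩, by rw [← mul_assoc, hz.2.1, one_mul]⟩
  rw [← comm_cn (g := g), cn_eq e3.symm]
  exact mem_C.1 e1 _ (e ▸ cn_mem_cj.2 hx)

theorem inv_of (h : Sim S A B) {b w : G} (hb : b ∈ B) (w2 : w * w = 1) (hw : ∀ z ∈ Om B, Commute w z)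
    (q : ∀ v ∈ Om A, cn b v = cn w v) : cn w b = b⁻¹ := by
  have cA : ∀ v ∈ Om A, Commute (b⁻¹ * w) v := fun v hv => comm_of_cn (by rw [mul_cn, ← q v hv, inv_cn])
  obtain ⟨a, ha, a1⟩ := s.exN h.mA
  have := comm_of_cn (s.ksq h.symm cA ha ▸ (mul_cn _ _ a))
  have e : b⁻¹ * w * (b⁻¹ * w) = b⁻¹ * (cn w b)⁻¹ := by rw [← cn_inv, cn, inv_of_sq w2]; group
  rw [e] at this
  have := s.fr h ha a1 (mul_mem (inv_mem hb) (inv_mem (cn_mem (s.C_Om h.mB hw) hb))) this.symm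
  rw [← mul_inv_rev, inv_eq_one] at this
  exact eq_inv_of_mul_eq_one_left this

/-- The key lemma for an involution `w`. -/
theorem key' (h : Sim S A B) {w : G} (w2 : w * w = 1) (hw : ∀ z ∈ Om B, Commute w z)
    (ad : Adj cj(w, A) A) : Com cj(w, A) A ∨ ∃ P ∈ S, ∃ p ∈ P, p ∉ Om P ∧ Sim S A P ∧ Com P B ∧
      (∀ v ∈ Om A, cn w v * v ∈ Om P) ∧ (∀ v ∈ Om A, cn p v = cn w v) ∧ cn w p = p⁻¹ := by
  by_cases n : Com cj(w, A) A
  · exact Or.inl n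
  obtain ⟨a, ha, a1⟩ := s.exN h.mA
  obtain ⟨v₀, hv₀, v1⟩ := s.exOm h.mA
  have c1 : ∀ v ∈ Om A, cn w v * v ∈ 𝐂[B] := fun v hv => mem_C.2 fun b hb => comm_of_cn (by
    rw [mul_cn, s.kcn h hw (h.adj v hv) (cn_mem (s.adj_N h.mB h.adj hv) hb), cn_invol hv.2.1])
  have c2 : ∀ v ∈ Om A, ∀ v' ∈ Om A, Commute (cn w v * v) v' := fun v hv v' hv' =>
    (ad _ (cn_mem_Om hv) v' hv').mul_left (hv.2.2 v' hv'.1)
  have c3 : ∀ v ∈ Om A, Commute w (cn w v * v) := fun v hv => comm_of_cn (by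
    rw [cn_mul, cn_invol w2, (ad _ (cn_mem_Om hv) v hv).eq])
  have n1 : ¬ ∀ x ∈ A, Commute x (cn w v₀) := fun e =>
    n (s.com_of h.mA (s.cj A h.mA w) (cn_mem_cj.2 hv₀.1) (by simpa using v1) e).symm
  obtain ⟨g, -, h1, h2, h3⟩ := s.key h.mA h.mB (s.sp h) ha a1 hw (fun v hv => by
    obtain ⟨z, hz, e, he, q⟩ := s.cent h (c1 v hv) hv₀ v1 (c2 v hv v₀ hv₀)
    refine ⟨z, hz, e, he, ?_, ?_⟩
    · have := (hw z hz).inv_right.mul_right (c3 v hv)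
      rwa [q, inv_mul_cancel_left] at this
    · rw [mul_assoc, ← q, ← (c2 v hv v hv).eq, mul_assoc, hv.2.1, mul_one]) ⟨v₀, hv₀, n1⟩
  have hP := s.cj A h.mA g
  have h4 : ∀ v ∈ Om A, cn w v * v ∈ Om cj(g, A) := fun v hv => s.om hP (h1 v hv)
    (sq_mul_one (ad _ (cn_mem_Om hv) v hv) (sq_cn.2 hv.2.1) hv.2.1)
  have u1 : cn w v₀ * v₀ ≠ 1 := mul_ne_one (sq_cn.2 hv₀.2.1) fun e =>
    n1 fun x hx => by rw [e]; exact s.comm A h.mA x hx v₀ hv₀.1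
  have sm : Sim S A cj(g, A) := ⟨h.mA, hP, s.adj_of_comm h.mA hP hv₀.1 (h1 v₀ hv₀) v1 u1
    (c2 v₀ hv₀ v₀ hv₀).symm, fun e => n1 fun x hx => by
      have := (e x hx _ (h1 v₀ hv₀)).mul_right (s.comm A h.mA x hx v₀ hv₀.1)
      rwa [mul_assoc, hv₀.2.1, mul_one] at this⟩
  refine Or.inr ⟨_, hP, cn g a, cn_mem_cj.2 ha, fun e => a1 (s.om h.mA ha (sq_cn.1 e.2.1)), sm,
    (s.com_of h.mB hP (h1 v₀ hv₀) u1 fun b hb => (mem_C.1 (c1 v₀ hv₀) b hb).symm).symm, h4, h2,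
    s.inv_of sm (cn_mem_cj.2 ha) w2 (fun z hz => ?_) h2⟩
  obtain ⟨v, hv, q⟩ := (s.sp sm).symm.surj (cn_mem_cj.2 ha)
    (fun e => a1 (s.om h.mA ha (sq_cn.1 e.2.1))) hz
  have := c3 v hv
  rwa [← h2 v hv, q, (sm.adj v hv z hz).eq, mul_assoc, hv.2.1, mul_one] at this

/-- two points in a `2`-group commute -/
theorem two_grp (P : Subgroup G) (hP : IsPGroup 2 P) :
    ∀ A ∈ S, ∀ B ∈ S, A ≤ P → B ≤ P → Com A B := by
  induction P using WellFoundedLT.induction with | ind P ih => ?_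
  have key : ∀ A ∈ S, A ≤ P → ∀ g ∈ P, Com cj(g, A) A := fun A hA hAP g hg => by
    rcases hAP.eq_or_lt with e | e
    · rw [cj_of_mem (e ▸ hg)]; exact s.comm A hA
    obtain ⟨Q, ⟨h1, h2⟩, hm⟩ := (wellFounded_gt (α := Subgroup G)).has_min {Q | A ≤ Q ∧ Q < P}
      ⟨A, le_rfl, e⟩
    have h3 := lt_inf_normalizer hP h2
    have h4 : P ≤ 𝐍[Q] := by
      by_contra n
      exact hm _ ⟨h1.trans h3.le, lt_of_le_of_ne inf_le_left fun e => n (inf_eq_left.1 e)⟩ h3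
    exact ih Q h2 (hP.to_le h2.le) _ (s.cj A hA g) _ hA (cj_le_of_mem_normalizer h1 (h4 hg)) h1
  intro A hA B hB hAP hBP
  have cc : ∀ a ∈ A, ∀ b ∈ B, (∀ x ∈ A, Commute x (cn a b * b⁻¹)) ∧ ∀ x ∈ B, Commute x (cn a b * b⁻¹) :=
    fun a ha b hb => ⟨fun x hx => cn_swap (a := a) ▸ (s.comm A hA x hx a ha).mul_right
      (key A hA hAP b (hBP hb) _ (cn_mem_cj.2 ha) x hx).symm.inv_right, fun x hx =>
      (key B hB hBP a (hAP ha) _ (cn_mem_cj.2 hb) x hx).symm.mul_right (s.comm B hB x hx b hb).inv_right⟩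
  by_contra n
  obtain ⟨v, hv, v1⟩ := s.exOm hA
  obtain ⟨b, hb, b2⟩ := s.four B hB
  have q : cn v b = cn v b * b⁻¹ * b := by group
  have c2 : cn v b * b⁻¹ * (cn v b * b⁻¹) = 1 := by
    have := cn_invol hv.2.1 b
    rw [q, cn_mul, cn_eq ((cc v hv.1 b hb).1 v hv.1), q, ← mul_assoc] at this
    simpa using this
  have sm : Sim S A B := ⟨hA, hB, s.adj_of_comm hA hB hv.1 (mul_mem hb hb) v1 b2 (comm_of_cn (by
    rw [cn_mul, q, sq_mul ((cc v hv.1 b hb).2 b hb).symm, c2, one_mul])), n⟩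
  obtain ⟨a, ha, a1⟩ := s.exN hA
  have hb' := cn_mem (s.adj_N hB sm.adj hv) hb
  have := s.fr sm ha a1 (mul_mem hb' (inv_mem hb)) ((cc v hv.1 b hb).1 a ha)
  exact v1 (s.fr sm.symm hb (fun e => b2 e.2.1) hv.1 (comm_of_cn (mul_inv_eq_one.1 this)).symm)

end Sys

end Cfsg.Agent.TIB
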