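import Mathlib
import Cfsg.Agent.TIB.Sim
import Cfsg.Agent.Inv.BaerSuzuki
import Cfsg.Agent.Solv.Coprime2
import Cfsg.Agent.Grp.PFrattini
import Cfsg.Agent.Grp.Cores

/-! Commuting points. -/

set_option autoImplicit false

namespace Cfsg.Agent.TIB

open Subgroup Cfsg.Agent.PLocal.Amb

variable {G : Type*} [Group G]

theorem odd_step {σ f c : G} (ho : (orderOf σ).Coprime 2) (q : cn σ f = f * c) (hc : Commute σ c)
    (h2 : ∃ k, c ^ 2 ^ k = 1) : c = 1 := by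
  have : ∀ n : ℕ, cn (σ ^ n) f = f * c ^ n := fun n => by
    induction n with
    | zero => simp
    | succ n ih => rw [pow_succ', mul_cn, ih, cn_mul, q, cn_pow, cn_eq hc, pow_succ', mul_assoc]
  have h1 := this (orderOf σ)
  rw [pow_orderOf_eq_one, one_cn, left_eq_mul] at h1
  obtain ⟨k, hk⟩ := h2
  exact orderOf_eq_one_iff.1 (Nat.eq_one_of_dvd_coprimes (ho.pow_right k) (orderOf_dvd_of_pow_eq_one h1)
    (orderOf_dvd_of_pow_eq_one hk))

theorem cn_inverted {w σ : G} (q : cn w σ = σ⁻¹) : cn σ w = σ * σ * w := by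
  have : cn σ w = σ * (cn w σ)⁻¹ * w := by simp [cn, mul_assoc]
  rw [this, q, inv_inv]

theorem odd_of_comm {w σ : G} (ho : (orderOf σ).Coprime 2) (w2 : w * w = 1) (q : cn w σ = σ⁻¹)
    (c : Commute w (cn σ w)) : σ = 1 := by
  rw [cn_inverted q] at c
  have := cn_eq (c.mul_right (Commute.refl w).inv_right)
  rw [mul_inv_cancel_right] at this
  rw [cn_mul, q, ← mul_inv_rev, inv_eq_iff_mul_eq_one] at this
  exact orderOf_eq_one_iff.1 (Nat.eq_one_of_dvd_coprimes (ho.pow_right 2) dvd_rfl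
    (orderOf_dvd_of_pow_eq_one (by rw [← this, ← sq, ← sq, ← pow_mul])))

/-- the odd part of a product of two involutions is inverted -/
theorem two_of_odd [Finite G] {d d' : G} (h : d * d = 1) (h' : d' * d' = 1)
    (ho : ∀ n : ℕ, (orderOf ((d * d') ^ n)).Coprime 2 → cn d ((d * d') ^ n) = ((d * d') ^ n)⁻¹ →
      (d * d') ^ n = 1) : ∃ k, (d * d') ^ 2 ^ k = 1 := by
  obtain ⟨k, hk⟩ := exists_pow_coprime (p := 2) (d * d')
  exact ⟨k, ho _ hk (by rw [cn_pow, cn_dih h h', inv_pow])⟩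

theorem baer [Finite G] {M : Subgroup G} {w : G} (hw : w ∈ M) (w2 : w * w = 1)
    (h : ∀ σ ∈ M, (orderOf σ).Coprime 2 → cn w σ = σ⁻¹ → σ = 1) : w ∈ pCoreOf 2 M := by
  refine mem_map_of_mem M.subtype (Inv.baer_suzuki_elem_pCore (p := 2) (⟨w, hw⟩ : M) fun m => ?_)
  have w2' := (sq_cn (g := (m : G))).2 w2
  have h1 := two_of_odd w2 w2' fun n => h _ (pow_mem (mul_mem hw (cn_mem' m.2 hw)) n)
  refine (isPGroup_subgroupOf (isPGroup_sup (pg_zp w2) (isPGroup_zpowers h1) (zpowers_le.2 (mem_N ?_)))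
    M).to_le ((closure_le _).2 ?_)
  · rintro _ ⟨k, rfl⟩
    refine ⟨-k, ?_⟩
    have := cn_dih w2 w2'
    generalize w * cn (m : G) w = g at *
    simp only [cn, ← conj_zpow] at *
    rw [this, zpow_neg, inv_zpow]
  · rintro _ (rfl | rfl)
    · exact mem_sup_left (mem_zpowers w)
    · have := mul_mem (mem_sup_left (mem_zpowers w) : w ∈ zpowers w ⊔ zpowers (w * cn (m : G) w))
        (mem_sup_right (mem_zpowers _))
      rwa [← mul_assoc, w2, one_mul] at this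

theorem cl_ea {T : Set G} (h : ∀ x ∈ T, x * x = 1) (c : ∀ x ∈ T, ∀ y ∈ T, Commute x y) :
    Com (closure T) (closure T) ∧ ∀ x ∈ closure T, x * x = 1 := by
  have h1 : Com (closure T) (closure T) := fun x hx => mem_C.1 ((closure_le _).2 (fun x hx =>
    mem_C.2 fun y hy => ((mem_centralizer_iff.1 ((closure_le _).2 (fun y hy =>
      mem_centralizer_iff.2 fun x hx => (c x hx y hy).eq) hy)) x hx)) hx)
  refine ⟨h1, fun x hx => ?_⟩
  induction hx using closure_induction with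
  | mem x hx => exact h x hx
  | one => simp
  | mul x y hx hy e e' => exact sq_mul_one (h1 x hx y hy) e e'
  | inv x hx e => rwa [inv_of_sq e]

theorem cj_closure_le {g : G} {T : Set G} {K : Subgroup G} (h : ∀ x ∈ T, cn g x ∈ K) :
    cj(g, closure T) ≤ K := by
  rw [MonoidHom.map_closure, closure_le]
  rintro _ ⟨x, hx, rfl⟩
  exact h x hx

/-- generated by the involutions of the points centralizing `B` -/
def W (S : Set (Subgroup G)) (B : Subgroup G) : Subgroup G :=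
  closure {x | ∃ A ∈ S, Com A B ∧ x ∈ Om A}

theorem mem_W {S : Set (Subgroup G)} {A B : Subgroup G} (hA : A ∈ S) (h : Com A B) {x : G}
    (hx : x ∈ Om A) : x ∈ W S B := subset_closure ⟨A, hA, h, hx⟩

theorem W_le_C (S : Set (Subgroup G)) (B : Subgroup G) : W S B ≤ 𝐂[B] :=
  (closure_le _).2 fun _ ⟨_, _, h, hx⟩ => mem_C.2 (h _ hx.1)

namespace Sys

variable {S : Set (Subgroup G)} (s : Sys S) {A B : Subgroup G}
include s

theorem W_cj (g : G) (B : Subgroup G) : cj(g, W S B) = W S cj(g, B) := by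
  have : ∀ (g : G) (B : Subgroup G), cj(g, W S B) ≤ W S cj(g, B) := fun g B =>
    cj_closure_le fun _ ⟨A, hA, h, hx⟩ => mem_W (s.cj A hA g) (h.cj g) (cn_mem_Om hx)
  exact le_antisymm (this g B) (le_cj_iff.2 (by simpa only [cj_inv_cj] using this g⁻¹ cj(g, B)))

theorem N_W (B : Subgroup G) : 𝐍[B] ≤ 𝐍[W S B] := fun g hg =>
  cj_eq_iff.1 (by rw [s.W_cj, cj_of_mem_normalizer hg])

theorem le_R (hB : B ∈ S) : B ≤ pCoreOf 2 𝐍[B] := le_pCoreOf (s.pg B hB) le_normalizer le_rfl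

theorem odd_R (hB : B ∈ S) {x : G} (ho : (orderOf x).Coprime 2) (h : x ∈ 𝐂[pCoreOf 2 𝐍[B]]) : x = 1 :=
  eq_one_of_isPGroup_of_coprime (isPGroup_pCoreOf 2 _) (s.ch B hB h) ho

variable [Finite G]

theorem T4 (hA : A ∈ S) (hB : B ∈ S) {w w' : G} (hw : w ∈ Om B) (hw' : w' ∈ Om B) (w1 : w ≠ 1)
    (w1' : w' ≠ 1) (ne : w ≠ w') (c1 : Com cj(w, A) A) (c2 : Com cj(w', A) A)
    (c3 : Com cj(w * w', A) A) : Adj A B := by
  obtain ⟨a, ha, a2⟩ := s.four A hA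
  have n : ∀ u ∈ Om B, u ≠ 1 → Com cj(u, A) A → a * cn u a ∈ 𝐍[B] := fun u hu u1 c =>
    s.mem_N_of hB hu.1 u1 (comm_of_cn (by
      rw [cn_mul, cn_invol hu.2.1, (c _ (cn_mem_cj.2 ha) a ha).eq])).symm
  have e1 := (c1 _ (cn_mem_cj.2 ha) a ha)
  have e2 := (c2 _ (cn_mem_cj.2 ha) a ha)
  have e3 := (c3 _ (cn_mem_cj.2 ha) a ha)
  have e4 : Commute (cn w' a) (cn (w * w') a) := by
    rw [(hw.2.2 w' hw'.1).eq, mul_cn, comm_cn]; exact e1.symm
  have m : a * cn w a * (cn w' a * cn (w * w') a) ∈ 𝐍[B] := s.mem_N_of hB hw.1 w1 (comm_of_cn (by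
    rw [cn_mul, cn_mul, cn_mul, cn_invol hw.2.1, e1.eq, mul_cn, cn_invol hw.2.1, ← mul_cn, e4.eq])).symm
  refine s.adj_of hA hB (mul_mem ha ha) a2 ((mul_mem_cancel_right m).1 ?_)
  have := mul_mem (n w hw w1 c1) (mul_mem (n w' hw' w1' c2)
    (n _ (mul_mem hw hw') (mul_ne_one hw.2.1 ne) c3))
  rwa [e2.mul_mul_mul_comm, ← mul_assoc, ← (((Commute.refl a).mul_left e1).mul_right
    ((Commute.refl a).mul_left e1)).symm.eq, mul_assoc] at this

theorem cj_com (hA : A ∈ S) (h : A ≤ 𝐍[B]) {r : G} (hr : r ∈ pCoreOf 2 𝐍[B]) : Com cj(r, A) A :=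
  s.two_grp _ (isPGroup_sup (s.pg A hA) (isPGroup_pCoreOf 2 _) (h.trans (le_normalizer_pCoreOf 2 _)))
    _ (s.cj A hA r) _ hA (cj_le_of_mem le_sup_left (mem_sup_right hr)) le_sup_left

theorem sq_R (hA : A ∈ S) (hB : B ∈ S) (h : A ≤ 𝐍[B]) {a : G} (ha : a ∈ A) :
    a * a ∈ pCoreOf 2 𝐍[B] := by
  set R := pCoreOf 2 𝐍[B] with hR
  have pR : IsPGroup 2 R := isPGroup_pCoreOf 2 _
  have nR : 𝐍[B] ≤ 𝐍[R] := le_normalizer_pCoreOf 2 _
  have nΦ : 𝐍[B] ≤ 𝐍[(frattini R).map R.subtype] :=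
    nR.trans (Grp.normalizer_le_normalizer_map_of_characteristic R _)
  let K : Subgroup G :=
    { carrier := {x | x ∈ 𝐍[B] ∧ ∀ r ∈ R, cn x r * r⁻¹ ∈ (frattini R).map R.subtype}
      one_mem' := ⟨one_mem _, fun r _ => by simp [one_mem]⟩
      mul_mem' := fun {x y} hx hy => ⟨mul_mem hx.1 hy.1, fun r hr => by
        have := mul_mem (cn_mem (nΦ hx.1) (hy.2 r hr)) (hx.2 r hr)
        rwa [cn_mul, cn_inv, mul_assoc, inv_mul_cancel_left, ← mul_cn] at this⟩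
      inv_mem' := fun {x} hx => ⟨inv_mem hx.1, fun r hr => by
        have := inv_mem (hx.2 _ (cn_mem (inv_mem (nR hx.1)) hr))
        rwa [cn_inv_cn, mul_inv_rev, inv_inv] at this⟩ }
  refine le_pCoreOf (R := K) (isPGroup_of_forall_coprime fun x hx ho => s.odd_R hB ho
    (Solv.le_centralizer_of_frattini (zpowers x) R (Solv.coprime_card_of_isPGroup (pR.to_subgroup _)
      (by rwa [Nat.card_zpowers])) (fun y hy => (zpowers_le.2 hx hy).2) (mem_zpowers x)))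
    (fun x hx => hx.1) (fun m hm => mem_N fun x hx => ⟨cn_mem' hm hx.1, fun r hr => ?_⟩)
    ⟨h (mul_mem ha ha), fun r hr => ?_⟩
  · have := cn_mem (nΦ hm) (hx.2 _ (cn_mem (inv_mem (nR hm)) hr))
    rwa [cn_mul, cn_inv, cn_inv_cn, ← cn_cn] at this
  · have c : Commute a (cn a r * r⁻¹) := cn_swap (a := a) ▸ (Commute.refl a).mul_right
      (s.cj_com hA h hr _ (cn_mem_cj.2 ha) a ha).symm.inv_right
    have := mem_map_of_mem R.subtype (Grp.PFrattini.pow_mem_frattini pR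
      ⟨_, mul_mem (cn_mem (nR (h ha)) hr) (inv_mem hr)⟩)
    rw [map_pow, coe_subtype, sq] at this
    rwa [mul_cn, show cn a (cn a r) = cn a (cn a r * r⁻¹) * cn a r by simp, cn_eq c, mul_assoc]

theorem adj_R (hA : A ∈ S) {A' : Subgroup G} (hA' : A' ∈ S) (h : A ≤ 𝐍[B]) {x y : G} (hx : x ∈ Om A')
    (hy : y ∈ Om A') (xR : x ∈ pCoreOf 2 𝐍[B]) (yR : y ∈ pCoreOf 2 𝐍[B]) (x1 : x ≠ 1) (y1 : y ≠ 1)
    (ne : x ≠ y) : Adj A A' :=
  s.T4 hA hA' hx hy x1 y1 ne (s.cj_com hA h xR) (s.cj_com hA h yR) (s.cj_com hA h (mul_mem xR yR))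

theorem Om_le_R (hA : A ∈ S) (hB : B ∈ S) (h : A ≤ 𝐍[B]) : Om A ≤ pCoreOf 2 𝐍[B] := by
  have nR : 𝐍[B] ≤ 𝐍[pCoreOf 2 𝐍[B]] := le_normalizer_pCoreOf 2 _
  obtain ⟨y, hy, yR, y1⟩ : ∃ y ∈ Om A, y ∈ pCoreOf 2 𝐍[B] ∧ y ≠ 1 := by
    obtain ⟨a, ha, a2⟩ := s.four A hA
    obtain ⟨n, n1, n2⟩ := exists_invol (s.two hA (mul_mem ha ha)) a2
    exact ⟨_, s.om hA (pow_mem (mul_mem ha ha) n) n2, pow_mem (s.sq_R hA hB h ha) n, n1⟩
  refine fun w hw => baer (h hw.1) hw.2.1 fun σ hσ ho q => odd_of_comm ho hw.2.1 q ?_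
  have hA' := s.cj A hA σ
  suffices Adj A cj(σ, A) from this w hw _ (cn_mem_Om hw)
  by_cases u : ∃ x ∈ Om A, x ∈ pCoreOf 2 𝐍[B] ∧ x ≠ 1 ∧ x ≠ y
  · obtain ⟨x, hx, xR, x1, ne⟩ := u
    exact s.adj_R hA hA' h (cn_mem_Om hx) (cn_mem_Om hy) (cn_mem (nR hσ) xR) (cn_mem (nR hσ) yR)
      (by simpa using x1) (by simpa using y1) (by simpa using ne)
  have h' : cj(σ, A) ≤ 𝐍[B] := cj_le_of_mem h hσ
  have hw' := cn_mem_Om (g := σ) hw
  set w' := cn σ w with ew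
  have c := s.cj_com hA' h' yR _ (cn_mem_cj.2 hw'.1) _ hw'.1
  have en : w' * cn y w' = cn w' y * y := by
    simp only [cn, inv_of_sq hy.2.1, inv_of_sq hw'.2.1, mul_assoc]
  have nRm : w' * cn y w' ∈ pCoreOf 2 𝐍[B] := en ▸ mul_mem (cn_mem (nR (h' hw'.1)) yR) yR
  have n2 := sq_mul_one c.symm hw'.2.1 (sq_cn.2 hw'.2.1)
  have ny : Commute y (w' * cn y w') := comm_of_cn (by rw [cn_mul, cn_invol hy.2.1, c.eq])
  set n := w' * cn y w' with e0
  have m1 : y ∈ closure {y, n} := subset_closure (by simp)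
  have m2 : n ∈ closure {y, n} := subset_closure (by simp)
  have N : ∀ g, cn g y ∈ closure {y, n} → cn g n ∈ closure {y, n} → g ∈ 𝐍[closure {y, n}] :=
    fun g h1 h2 => mem_normalizer_of_cj_le (cj_closure_le (by rintro _ (rfl | rfl) <;> assumption))
  have N1 : w ∈ 𝐍[closure {y, n}] := N w (by rwa [cn_eq (hw.2.2 y hy.1)]) (by
    have h1 := mul_mem hw (cn_Om (s.mem_N_of hA hy.1 y1 ny.symm) hw)
    have e : w * cn n w = cn w n * n := by
      simp only [cn, inv_of_sq hw.2.1, inv_of_sq n2, mul_assoc]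
    have : cn w n * n ∈ closure {y, n} := by
      by_cases e1 : w * cn n w = 1
      · rw [← e, e1]; exact one_mem _
      by_cases e2 : w * cn n w = y
      · rwa [← e, e2]
      exact absurd ⟨_, h1, e ▸ mul_mem (cn_mem (nR (h hw.1)) nRm) nRm, e1, e2⟩ u
    exact (mul_mem_cancel_right m2).1 this)
  have N2 : w' ∈ 𝐍[closure {y, n}] := N w' ((mul_mem_cancel_right m1).1 (en ▸ m2))
    (by rwa [cn_eq ((Commute.refl w').mul_right c.symm)])
  have N3 : σ ∈ 𝐍[closure {y, n}] := mem_of_pow_mem_of_coprime (n := 2) (by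
    have := mul_mem N2 (inv_mem N1)
    rwa [ew, cn_inverted q, mul_inv_cancel_right, ← sq] at this) ho
  refine s.adj_of_comm hA hA' hy.1 (cn_mem_cj.2 hy.1) y1 (by simpa using y1) ?_
  exact (cl_ea (T := {y, n}) (by rintro _ (rfl | rfl); exacts [hy.2.1, n2]) (by
    rintro _ (rfl | rfl) _ (rfl | rfl)
    exacts [Commute.refl _, ny, ny.symm, Commute.refl _])).1 _ m1 _ (cn_mem N3 m1)

theorem perp_adj (hA : A ∈ S) {A' : Subgroup G} (hA' : A' ∈ S) (hB : B ∈ S) (h : Com A B)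
    (h' : Com A' B) : Adj A A' := by
  obtain ⟨x, hx, y, hy, x2, y2, x1, y1, ne⟩ := s.rk A' hA'
  have := s.Om_le_R hA' hB (s.le_N hB h')
  exact s.adj_R hA hA' (s.le_N hB h) (s.om hA' hx x2) (s.om hA' hy y2) (this (s.om hA' hx x2))
    (this (s.om hA' hy y2)) x1 y1 ne

theorem W_ea (hB : B ∈ S) : Com (W S B) (W S B) ∧ ∀ x ∈ W S B, x * x = 1 :=
  cl_ea (fun _ ⟨_, _, _, hx⟩ => hx.2.1) fun _ ⟨_, hA, h, hx⟩ _ ⟨_, hA', h', hy⟩ =>
    s.perp_adj hA hA' hB h h' _ hx _ hy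

theorem exists_sim (hA : A ∈ S) (hB : B ∈ S) (h : Com A B) (ne : A ≠ B) :
    ∃ A' ∈ S, Com A' B ∧ Sim S A' A := by
  by_contra hc
  have h1 : W S B ≤ W S A := (closure_le _).2 fun x ⟨A', hA', h', hx⟩ => mem_W hA' (by
    by_contra n
    exact hc ⟨A', hA', h', hA', hA, s.perp_adj hA' hA hB h' h, n⟩) hx
  obtain ⟨g, rfl⟩ := s.tr B hB A hA
  rw [← s.W_cj] at h1
  obtain ⟨z, hz, z1⟩ := s.exOm hB
  exact ne (cj_of_mem_normalizer (s.max B hB _ (pg_of_sq (s.W_ea hB).2)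
    (fun e => z1 (mem_bot.1 (e ▸ mem_W hB (s.comm B hB) hz))) (s.N_W B)
    (cj_eq_iff.1 (eq_of_le_of_card_ge h1 (card_cj _ _).le).symm)))

end Sys

end Cfsg.Agent.TIB
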