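import Mathlib
import Cfsg.Agent.TIB.Perp

/-! If no two lines through a point normalize each other then there are no adjacent points. -/

set_option autoImplicit false

namespace Cfsg.Agent.TIB

open Subgroup Cfsg.Agent.PLocal.Amb

variable {G : Type*} [Group G]

/-- two lines through `B` generating a nonabelian group of class `2` -/
structure Bow (S : Set (Subgroup G)) (B A₁ A₂ : Subgroup G) : Prop where
  s1 : Sim S A₁ B
  s2 : Sim S A₂ B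
  ex : ∃ d₁ ∈ Om A₁, ∃ d₂ ∈ Om A₂, cn d₂ d₁ * d₁ ∈ Om B ∧ ¬ Commute d₂ d₁

theorem cn_mul_swap {d d' : G} (h : d * d = 1) (h' : d' * d' = 1) : cn d d' * d' = (cn d' d * d)⁻¹ := by
  simp only [cn, mul_inv_rev, inv_of_sq h, inv_of_sq h', mul_assoc]

theorem cn_mul_eq {d d' : G} (h : d * d = 1) (h' : d' * d' = 1) : cn d d' * d' = d * cn d' d := by
  simp only [cn, inv_of_sq h, inv_of_sq h', mul_assoc]

theorem cn_mul_ne {d d' : G} (h' : d' * d' = 1) (n : ¬ Commute d d') : cn d d' * d' ≠ 1 :=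
  mul_ne_one (sq_cn.2 h') fun e => n (comm_of_cn e)

theorem Bow.symm {S : Set (Subgroup G)} {B A₁ A₂ : Subgroup G} (h : Bow S B A₁ A₂) : Bow S B A₂ A₁ := by
  obtain ⟨d₁, h1, d₂, h2, e, n⟩ := h.ex
  exact ⟨h.s2, h.s1, d₂, h2, d₁, h1, cn_mul_swap h1.2.1 h2.2.1 ▸ inv_mem e, fun c => n c.symm⟩

/-- the involutions in points -/
def D (S : Set (Subgroup G)) : Set G := {x | ∃ A ∈ S, x ∈ Om A}

theorem D.sq {S : Set (Subgroup G)} {x : G} (h : x ∈ D S) : x * x = 1 := by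
  obtain ⟨A, -, h⟩ := h
  exact h.2.1

/-- generated by the involutions of points normalizing `B` -/
def S0 (S : Set (Subgroup G)) (B : Subgroup G) : Subgroup G := closure (D S ∩ 𝐍[B])

theorem mem_S0 {S : Set (Subgroup G)} {B : Subgroup G} {x : G} (h : x ∈ D S) (h' : x ∈ 𝐍[B]) :
    x ∈ S0 S B := subset_closure ⟨h, h'⟩

namespace Sys

variable {S : Set (Subgroup G)} (s : Sys S) {A B : Subgroup G}
include s

theorem cn_D {x : G} (h : x ∈ D S) (g : G) : cn g x ∈ D S := by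
  obtain ⟨A, hA, h⟩ := h
  exact ⟨_, s.cj A hA g, cn_mem_Om h⟩

theorem S0_cj (g : G) (B : Subgroup G) : cj(g, S0 S B) = S0 S cj(g, B) := by
  have : ∀ (g : G) (B : Subgroup G), cj(g, S0 S B) ≤ S0 S cj(g, B) := fun g B =>
    cj_closure_le fun _ hx => subset_closure ⟨s.cn_D hx.1 g, by
      rw [SetLike.mem_coe, normalizer_cj]; exact cn_mem_cj.2 hx.2⟩
  exact le_antisymm (this g B) (le_cj_iff.2 (by simpa only [cj_inv_cj] using this g⁻¹ cj(g, B)))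

theorem N_S0 (B : Subgroup G) : 𝐍[B] ≤ 𝐍[S0 S B] := fun g hg =>
  cj_eq_iff.1 (by rw [s.S0_cj, cj_of_mem_normalizer hg])

theorem refl_D {M : Subgroup G} {d d' : G} (h : d ∈ D S) (h' : d' ∈ D S) (hd : d ∈ M) (hd' : d' ∈ M)
    (m : ℕ) : d * (d * d') ^ m ∈ D S ∧ d * (d * d') ^ m ∈ M := by
  refine ⟨?_, mul_mem hd (pow_mem (mul_mem hd hd') m)⟩
  obtain ⟨i, e | e⟩ := refl_conj (D.sq h) (D.sq h') m <;> rw [e]
  exacts [s.cn_D h _, s.cn_D h' _]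

variable [Finite G]

theorem bow_of (h : Sim S A B) {A' : Subgroup G} (hA' : A' ∈ S) {v w : G} (hv : v ∈ Om A) (hw : w ∈ Om A')
    (cw : ∀ z ∈ Om B, Commute w z) (c : Commute v (cn w v)) (n : ¬ Commute w v) :
    Com cj(w, A) A ∨ ∃ P, Bow S P A A' ∧ Com P B ∧ cn w v * v ∈ P := by
  have v1 : v ≠ 1 := by rintro rfl; simp at n
  refine (s.key' h hw.2.1 cw (s.adj_of_comm (s.cj A h.mA w) h.mA (cn_mem_cj.2 hv.1) hv.1
    (by simpa using v1) v1 c.symm)).imp_right fun ⟨P, hP, p, hp, p1, sm, cP, h1, _, h3⟩ =>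
      ⟨P, ⟨sm, ⟨hA', hP, s.adj_of_comm hA' hP hw.1 (h1 v hv).1 (by rintro rfl; simp at n)
        (cn_mul_ne hv.2.1 n) (comm_of_cn (by rw [cn_mul, cn_invol hw.2.1, c.eq])), fun e =>
        p1 (s.om hP hp (by rw [cn_eq (e w hw.1 p hp)] at h3; exact eq_inv_iff_mul_eq_one.1 h3))⟩,
        v, hv, w, hw, h1 v hv, n⟩, cP, (h1 v hv).1⟩

theorem pcase (h : Sim S A B) {B' : Subgroup G} (hB' : B' ∈ S) (c : Com B' B) :
    Adj A B' ∨ ∃ P, Bow S P A B' ∧ Com P B := by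
  by_contra hc
  obtain ⟨n, hb⟩ := not_or.1 hc
  obtain ⟨v, hv, v1⟩ := s.exOm h.mA
  have : ∀ w ∈ Om B', w ≠ 1 → Com cj(w, A) A := fun w hw w1 => by
    have wW := mem_W hB' c hw
    refine (s.bow_of h hB' hv hw (fun z hz => c w hw.1 z hz.1) (comm_of_sq (sq_cn.2 hv.2.1) hv.2.1 ?_).symm
      fun e => n (s.adj_of_comm h.mA hB' hv.1 hw.1 v1 w1 e.symm)).resolve_right
      fun ⟨P, h1, h2, _⟩ => hb ⟨P, h1, h2⟩
    rw [cn_mul_eq hw.2.1 hv.2.1]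
    exact (s.W_ea h.mB).2 _ (mul_mem wW (cn_mem (s.N_W B (s.adj_N h.mB h.adj hv)) wW))
  obtain ⟨x, hx, y, hy, x2, y2, x1, y1, ne⟩ := s.rk B' hB'
  exact n (s.T4 h.mA hB' (s.om hB' hx x2) (s.om hB' hy y2) x1 y1 ne (this x (s.om hB' hx x2) x1)
    (this y (s.om hB' hy y2) y1)
    (this _ (mul_mem (s.om hB' hx x2) (s.om hB' hy y2)) (mul_ne_one x2 ne)))

theorem com_W (h : Sim S A B) {w v : G} (cw : ∀ z ∈ Om B, Commute w z) (c : Com cj(w, A) A)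
    (hv : v ∈ Om A) : cn w v * v ∈ W S B := by
  have h1 : cn w v * v ∈ W S A :=
    mul_mem (mem_W (s.cj A h.mA w) c (cn_mem_Om hv)) (mem_W h.mA (s.comm A h.mA) hv)
  have h2 : cn w v * v ∈ 𝐂[B] := mem_C.2 fun b hb => comm_of_cn (by
    rw [mul_cn, s.kcn h cw (h.adj v hv) (cn_mem (s.adj_N h.mB h.adj hv) hb), cn_invol hv.2.1])
  obtain ⟨a, ha, a1⟩ := s.exN h.mA
  obtain ⟨b, hb, b1⟩ := s.exN h.mB
  obtain ⟨g, hg, e⟩ := s.conjAB h ha a1 hb b1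
  have : Commute g (cn w v * v) := mem_centralizer_singleton_iff.1 ((show closure {a, b} ≤
    centralizer {cn w v * v} from (closure_le _).2 (by
      rintro _ (rfl | rfl)
      exacts [mem_centralizer_singleton_iff.2 (mem_C.1 (W_le_C S A h1) _ ha).symm,
        mem_centralizer_singleton_iff.2 (mem_C.1 h2 _ hb).symm])) hg)
  rw [← cn_eq this, ← e, ← s.W_cj]
  exact cn_mem_cj.2 h1

variable (ns : ∀ B A₁ A₂, ¬ Bow S B A₁ A₂)
include ns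

theorem nP (h : Sim S A B) {B' : Subgroup G} (hB' : B' ∈ S) (c : Com B' B) : Adj A B' :=
  (s.pcase h hB' c).resolve_right fun ⟨_, h, _⟩ => ns _ _ _ h

theorem nW (h : Sim S A B) {v w : G} (hv : v ∈ Om A) (hw : w ∈ W S B) : Commute v w :=
  (mem_centralizer_singleton_iff.1 ((show W S B ≤ centralizer {v} from (closure_le _).2
    fun _ ⟨_, hB', c, hx⟩ => mem_centralizer_singleton_iff.2 (s.nP ns h hB' c v hv _ hx).symm) hw)).symm

theorem noD8 (hB : B ∈ S) {d d' : G} (h : d ∈ D S) (h' : d' ∈ D S) (hd : d ∈ 𝐍[B]) (hd' : d' ∈ 𝐍[B])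
    (c : Commute d (cn d' d)) : Commute d d' := by
  by_contra n
  obtain ⟨A, hA, hv⟩ := h
  obtain ⟨A', hA', hv'⟩ := h'
  have a1 := s.adj_of hA hB hv.1 (by rintro rfl; simp at n) hd
  have a2 := s.adj_of hA' hB hv'.1 (by rintro rfl; simp at n) hd'
  by_cases c1 : Com A B <;> by_cases c2 : Com A' B
  · exact n (s.perp_adj hA hA' hB c1 c2 d hv d' hv')
  · exact n (s.nP ns ⟨hA', hB, a2, c2⟩ hA c1 d' hv' d hv).symm
  · exact n (s.nP ns ⟨hA, hB, a1, c1⟩ hA' c2 d hv d' hv')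
  have h1 : Sim S A B := ⟨hA, hB, a1, c1⟩
  have h2 : Sim S A' B := ⟨hA', hB, a2, c2⟩
  have e1 := (s.bow_of h2 hA hv' hv (a1 d hv) (comm_of_sq (sq_cn.2 hv'.2.1) hv'.2.1 (by
    rw [cn_mul_eq hv.2.1 hv'.2.1]; exact sq_mul_one c hv.2.1 (sq_cn.2 hv.2.1))).symm n).resolve_right
    fun ⟨_, h, _⟩ => ns _ _ _ h
  have : ∀ w ∈ Om A', w ≠ 1 → Com cj(w, A) A := fun w hw w1 =>
    (s.bow_of h1 hA' hv hw (a2 w hw) (comm_of_sq hv.2.1 (sq_cn.2 hv.2.1) (by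
      rw [← cn_mul_eq hv.2.1 hw.2.1]; exact (s.W_ea hB).2 _ (s.com_W h2 (a1 d hv) e1 hw)))
      fun e => n (s.adj_of_comm hA hA' hv.1 hw.1 (by rintro rfl; simp at n) w1 e.symm d hv d' hv')
      ).resolve_right fun ⟨_, h, _⟩ => ns _ _ _ h
  obtain ⟨x, hx, y, hy, x2, y2, x1, y1, ne⟩ := s.rk A' hA'
  exact n (s.T4 hA hA' (s.om hA' hx x2) (s.om hA' hy y2) x1 y1 ne (this x (s.om hA' hx x2) x1)
    (this y (s.om hA' hy y2) y1)
    (this _ (mul_mem (s.om hA' hx x2) (s.om hA' hy y2)) (mul_ne_one x2 ne)) d hv d' hv')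

theorem two_comm (hB : B ∈ S) {d d' : G} (h : d ∈ D S) (h' : d' ∈ D S) (hd : d ∈ 𝐍[B]) (hd' : d' ∈ 𝐍[B])
    (t : ∃ k, (d * d') ^ 2 ^ k = 1) : Commute d d' := by
  by_contra n
  obtain ⟨k, hk⟩ := t
  obtain ⟨m, m1, m2⟩ := exists_invol (x := d * d' * (d * d')) ⟨k, by
    rw [(Commute.refl _).mul_pow, hk, one_mul]⟩ fun e => n (comm_of_sq (D.sq h) (D.sq h') e)
  rw [(Commute.refl _).mul_pow] at m1 m2
  obtain ⟨h1, h2⟩ := s.refl_D h h' hd hd' m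
  have e : cn d ((d * d') ^ m) = ((d * d') ^ m)⁻¹ := by rw [cn_pow, cn_dih (D.sq h) (D.sq h'), inv_pow]
  generalize (d * d') ^ m = t at *
  have := s.noD8 ns hB h h1 hd h2 (comm_of_sq (D.sq h) (sq_cn.2 (D.sq h)) (by
    have e2 : d * cn (d * t) d = t * t := by
      rw [← cn_mul_eq (D.sq h) (D.sq h1), cn_mul, cn_self, e, mul_assoc, ← mul_assoc t⁻¹,
        show t⁻¹ * d = d * t by rw [← e, cn, inv_of_sq (D.sq h), mul_assoc, D.sq h, mul_one],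
        ← mul_assoc, ← mul_assoc, D.sq h, one_mul]
    rw [e2, m2]))
  have := cn_eq ((Commute.refl d).inv_right.mul_right this)
  rw [inv_mul_cancel_left, e] at this
  exact m1 (inv_eq_iff_mul_eq_one.1 this)

theorem odd_one (h : Sim S A B) {d σ : G} (hd : d ∈ Om A) (hσ : σ ∈ 𝐍[B]) (ho : (orderOf σ).Coprime 2)
    (q : cn d σ = σ⁻¹) : σ = 1 := by
  have h' := s.sim_cj' h hσ
  have hd' := cn_mem_Om (g := σ) hd
  have e : cn σ d * d = σ * σ := by rw [cn_inverted q, mul_assoc, hd.2.1, mul_one]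
  have ho' : (orderOf (σ * σ)).Coprime 2 := ho.coprime_dvd_left (by rw [← sq]; exact orderOf_pow_dvd 2)
  set R := pCoreOf 2 𝐍[B]
  have pR : IsPGroup 2 R := isPGroup_pCoreOf 2 _
  have nF : 𝐍[B] ≤ 𝐍[R ⊓ 𝐂[B]] :=
    le_normalizer_inf (le_normalizer_pCoreOf 2 _) (normalizer_le_normalizer_centralizer B)
  have k0 : ∀ z ∈ Om B, Commute (σ * σ) z := fun z hz => e ▸ (h'.adj _ hd' z hz).mul_left (h.adj _ hd z hz)
  have k1 : σ * σ ∈ 𝐂[B] := mem_C.2 fun b hb => by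
    obtain ⟨z, hz, q⟩ := s.kB h k0 hb
    exact comm_of_cn (by rw [q, odd_step ho' q (k0 z hz) ⟨1, by rw [pow_one, sq, hz.2.1]⟩, mul_one])
  have c0 : ∀ {A}, Sim S A B → ∀ v ∈ Om A, ∀ f ∈ R, Commute v (cn f v) := fun {A} h v hv f hf => by
    have vN := s.adj_N h.mB h.adj hv
    refine s.two_comm ns h.mB ⟨A, h.mA, hv⟩ (s.cn_D ⟨A, h.mA, hv⟩ f) vN
      (cn_mem' (pCoreOf_le 2 _ hf) vN) (isPGroup_iff.1 pR _ ?_)
    have := mul_mem (cn_mem (le_normalizer_pCoreOf 2 _ vN) hf) (inv_mem hf)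
    rwa [cn_swap, inv_of_sq (sq_cn.2 hv.2.1)] at this
  have c1 : ∀ {A}, Sim S A B → ∀ v ∈ Om A, ∀ f ∈ R ⊓ 𝐂[B], f * f = 1 → ∃ c ∈ W S B, cn v f = f * c :=
    fun {A} h v hv f hf f2 => by
      refine ⟨cn f v * v, ?_, by rw [cn_mul_eq f2 hv.2.1, ← mul_assoc, f2, one_mul]⟩
      by_cases v1 : v = 1
      · simp [v1, one_mem]
      have cw : ∀ z ∈ Om B, Commute f z := fun z hz => mem_C.1 hf.2 z hz.1
      rcases s.key' h f2 cw (s.adj_of_comm (s.cj A h.mA f) h.mA (cn_mem_cj.2 hv.1) hv.1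
        (by simpa using v1) v1 (c0 h v hv f hf.1).symm) with c | ⟨P, hP, -, -, -, -, c, h1, -⟩
      exacts [s.com_W h cw c hv, mem_W hP c (h1 v hv)]
  have k2 : ∀ w ∈ W S B, Commute (σ * σ) w := fun w hw =>
    e ▸ (s.nW ns h' hd' hw).mul_left (s.nW ns h hd hw)
  have k3 : ∀ f ∈ R ⊓ 𝐂[B], f * f = 1 → Commute (σ * σ) f := fun f hf f2 => by
    obtain ⟨c, hc, q⟩ := c1 h d hd f hf f2
    obtain ⟨c', hc', q'⟩ := c1 h' _ hd' f hf f2
    have : cn (σ * σ) f = f * (c' * c) := by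
      rw [← e, mul_cn, q, cn_mul, q', cn_eq (s.nW ns h' hd' hc), mul_assoc]
    exact comm_of_cn (by rw [this, odd_step ho' this (k2 _ (mul_mem hc' hc))
      ⟨1, by rw [pow_one, sq, (s.W_ea h.mB).2 _ (mul_mem hc' hc)]⟩, mul_one])
  have c2 : ∀ {A}, Sim S A B → ∀ v ∈ Om A, ∀ f ∈ R ⊓ 𝐂[B], ∃ c ∈ R ⊓ 𝐂[B], c * c = 1 ∧ cn v f = f * c :=
    fun {A} h v hv f hf => ⟨f⁻¹ * cn v f, mul_mem (inv_mem hf) (cn_mem (nF (s.adj_N h.mB h.adj hv)) hf), by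
      rw [show f⁻¹ * cn v f = cn f⁻¹ v * v⁻¹ by simp [cn, mul_assoc], inv_of_sq hv.2.1]
      exact sq_mul_one (c0 h v hv _ (inv_mem hf.1)).symm (sq_cn.2 hv.2.1) hv.2.1, by group⟩
  have k4 : ∀ f ∈ R ⊓ 𝐂[B], Commute (σ * σ) f := fun f hf => by
    obtain ⟨c, hc, c2', q⟩ := c2 h d hd f hf
    obtain ⟨c', hc', c2'', q'⟩ := c2 h' _ hd' f hf
    have m := cn_mem (nF (s.adj_N h.mB h'.adj hd')) hc
    have : cn (σ * σ) f = f * (c' * cn (cn σ d) c) := by rw [← e, mul_cn, q, cn_mul, q', mul_assoc]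
    exact comm_of_cn (by rw [this, odd_step ho' this ((k3 _ hc' c2'').mul_right (k3 _ m (sq_cn.2 c2')))
      (isPGroup_iff.1 pR _ (mul_mem hc'.1 m.1)), mul_one])
  have := s.odd_R h.mB ho' (Solv.p_times_q 2 B (zpowers (σ * σ)) R (s.pg B h.mB)
    (by rwa [Nat.card_zpowers]) pR (le_centralizer_iff.1 (zpowers_le.2 k1))
    ((s.le_R h.mB).trans le_normalizer) (zpowers_le.2 (le_normalizer_pCoreOf 2 _ (mul_mem hσ hσ)))
    (le_centralizer_iff.1 (zpowers_le.2 (mem_C.2 k4))) (mem_zpowers _))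
  exact eq_one_of_isPGroup_of_coprime (pg_zp this) (mem_zpowers σ) ho

theorem all_comm (hB : B ∈ S) {d d' : G} (h : d ∈ D S) (h' : d' ∈ D S) (hd : d ∈ 𝐍[B])
    (hd' : d' ∈ 𝐍[B]) : Commute d d' := by
  refine s.two_comm ns hB h h' hd hd' (two_of_odd (D.sq h) (D.sq h') fun n ho q => ?_)
  have hσ := pow_mem (mul_mem hd hd') n
  generalize (d * d') ^ n = σ at *
  obtain ⟨A, hA, hv⟩ := h
  by_cases d1 : d = 1
  · exact odd_of_comm ho hv.2.1 q (by simp [d1])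
  by_cases c : Com A B
  · have dR := s.Om_le_R hA hB (s.le_N hB c) hv
    have := mul_mem (cn_mem (le_normalizer_pCoreOf 2 _ hσ) dR) dR
    rw [cn_inverted q, mul_assoc, hv.2.1, mul_one, ← sq] at this
    exact eq_one_of_isPGroup_of_coprime (isPGroup_pCoreOf 2 _) (mem_of_pow_mem_of_coprime this ho) ho
  · exact s.odd_one ns ⟨hA, hB, s.adj_of hA hB hv.1 d1 hd, c⟩ hv hσ ho q

theorem noadj (hA : A ∈ S) (hB : B ∈ S) (h : Adj A B) : A = B := by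
  obtain ⟨g, rfl⟩ := s.tr B hB A hA
  obtain ⟨v, hv, v1⟩ := s.exOm hA
  obtain ⟨z, hz, z1⟩ := s.exOm hB
  have h1 : S0 S B ≤ cj(g, S0 S B) := s.S0_cj g B ▸ closure_mono fun x hx => ⟨hx.1,
    s.mem_N_of hA hv.1 v1 (s.all_comm ns hB hx.1 ⟨_, hA, hv⟩ hx.2 (s.adj_N hB h hv))⟩
  exact cj_of_mem_normalizer (s.max B hB _ (pg_of_sq (cl_ea (fun x hx => D.sq hx.1)
    fun x hx y hy => s.all_comm ns hB hx.1 hy.1 hx.2 hy.2).2)
    (fun e => z1 (mem_bot.1 (e ▸ mem_S0 ⟨B, hB, hz⟩ (le_normalizer hz.1)))) (s.N_S0 B)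
    (cj_eq_iff.1 (eq_of_le_of_card_ge h1 (card_cj _ _).le).symm))

end Sys

end Cfsg.Agent.TIB
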