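import Mathlib
import Cfsg.Agent.TIB.NoBow

/-! The points on a line. -/

set_option autoImplicit false

namespace Cfsg.Agent.TIB

open Subgroup Cfsg.Agent.PLocal.Amb

variable {G : Type*} [Group G]

/-- every involution of a point is a square -/
def Sq (S : Set (Subgroup G)) : Prop := ∀ B ∈ S, ∀ z ∈ Om B, ∃ b ∈ B, b * b = z

/-- inverting is additive -/
def Ad (A B : Subgroup G) : Prop := ∀ v ∈ Om A, ∀ v' ∈ Om A, ∀ b ∈ B, ∀ b' ∈ B, b * b ≠ 1 →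
  b' * b' ≠ 1 → cn v b = b⁻¹ → cn v' b' = b'⁻¹ → cn (v * v') (b * b') = (b * b')⁻¹

/-- `a` and `b` act by mutually inverse maps -/
def Par (A B : Subgroup G) (a b : G) : Prop :=
  ∀ v ∈ Om A, ∀ z ∈ Om B, cn a z = z * v ↔ cn b v = v * z

/-- a torus element of the line -/
structure Rot (A B : Subgroup G) (h : G) : Prop where
  mem : h ∈ A ⊔ B
  nA : h ∈ 𝐍[A]
  nB : h ∈ 𝐍[B]
  fpf : ∀ z ∈ Om B, cn h z = z → z = 1

theorem Rot.cE {A B : Subgroup G} {h e : G} (r : Rot A B h) (he : e ∈ 𝐂[A] ⊓ 𝐂[B]) : cn h e = e :=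
  cn_eq (mem_C.1 (centralizer_sup A B ▸ he) h r.mem).symm

theorem nOm {B : Subgroup G} {b : G} (h : b * b ≠ 1) : b ∉ Om B := fun e => h e.2.1

namespace Sys

variable {S : Set (Subgroup G)} (s : Sys S) {A B : Subgroup G} {a a' b c v v' x y z z' : G}
include s

theorem omsq (hB : B ∈ S) (hb : b ∈ B) (hc : c ∈ B) (e : b * b = c * c) : ∃ z ∈ Om B, c = b * z :=
  ⟨b⁻¹ * c, s.om hB (mul_mem (inv_mem hb) hc) (by
    rw [sq_mul (s.comm B hB _ (inv_mem hb) _ hc), ← e]; group), by group⟩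

theorem sqz (hB : B ∈ S) (hb : b ∈ B) (hz : z ∈ Om B) : b * z * (b * z) = b * b := by
  rw [sq_mul (s.comm B hB b hb z hz.1), hz.2.1, mul_one]

theorem same' (h : Sim S A B) (hb : b ∈ B) (hc : c ∈ B) (e : b * b = c * c) (hv : v ∈ Om A) :
    cn b v = cn c v := by
  obtain ⟨z, hz, rfl⟩ := s.omsq h.mB hb hc e
  rw [mul_cn, cn_eq (h.adj v hv z hz).symm]

theorem inv_same (hB : B ∈ S) (hx : ∀ z ∈ Om B, Commute x z) (hb : b ∈ B) (hc : c ∈ B)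
    (e : b * b = c * c) (q : cn x b = b⁻¹) : cn x c = c⁻¹ := by
  obtain ⟨z, hz, rfl⟩ := s.omsq hB hb hc e
  rw [cn_mul, q, cn_eq (hx z hz), mul_inv_rev, inv_of_sq hz.2.1, (hz.2.2 _ (inv_mem hb)).eq]

variable [Finite G]

theorem same (h : Sim S A B) (hb : b ∈ B) (hc : c ∈ B) (hv : v ∈ Om A) (v1 : v ≠ 1)
    (e : cn b v = cn c v) : b * b = c * c := by
  have := ((s.sp h).frB _ (mul_mem (inv_mem hb) hc) v hv.1 v1 (comm_of_cn (by
    rw [mul_cn, ← e, inv_cn]))).2.1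
  rwa [sq_mul (s.comm B h.mB _ (inv_mem hb) _ hc), ← mul_inv_rev, inv_mul_eq_one] at this

theorem uniq (h : Sim S A B) (hv : v ∈ Om A) (hv' : v' ∈ Om A) (hb : b ∈ B) (b2 : b * b ≠ 1)
    (e : cn v b = cn v' b) : v = v' :=
  eq_of_mul_eq_one hv.2.1 (s.fr h.symm hb (nOm b2) (mul_mem hv.1 hv'.1) (comm_of_cn (by
    rw [mul_cn, ← e, cn_invol hv.2.1])).symm)

theorem split (h : Sim S A B) (hv : v ∈ Om A) (hv' : v' ∈ Om A) (hz : z ∈ B) (hz' : z' ∈ B)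
    (e : v * z = v' * z') : v = v' ∧ z = z' := by
  have : v'⁻¹ * v = 1 := (s.sp h).dis _ (mul_mem (inv_mem hv'.1) hv.1) (by
    rw [show v'⁻¹ * v = z' * z⁻¹ by rw [← mul_inv_cancel_right v z, e]; group]
    exact mul_mem hz' (inv_mem hz))
  obtain rfl := inv_mul_eq_one.1 this
  exact ⟨rfl, mul_left_cancel e⟩

theorem sqO (h : Sim S A B) (hb : b ∈ B) : b * b ∈ Om B := (s.sp h).sB b hb

theorem actB (h : Sim S A B) (hb : b ∈ B) (hv : v ∈ Om A) : ∃ z ∈ Om B, cn b v = v * z :=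
  (s.sp h).actB b hb v hv

theorem act_ne (h : Sim S A B) (hb : b ∈ B) (b2 : b * b ≠ 1) (hv : v ∈ A) (v1 : v ≠ 1)
    (e : cn b v = v * z) : z ≠ 1 := by
  rintro rfl
  exact v1 (s.fr h.symm hb (nOm b2) hv (comm_of_cn (by simpa using e)))

theorem cover (sq : Sq S) (h : Sim S A B) (hv : v ∈ Om A) (v1 : v ≠ 1) (hz : z ∈ Om B) :
    ∃ b ∈ B, cn b v = v * z := by
  obtain ⟨_, -, b, hb, -, e⟩ := surj_rel le_rfl (fun y z => ∃ b ∈ B, b * b = y ∧ cn b v = v * z)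
    (fun y hy => by
      obtain ⟨b, hb, e⟩ := sq B h.mB y hy
      obtain ⟨z, hz, q⟩ := s.actB h hb hv
      exact ⟨z, hz, b, hb, e, q⟩)
    (fun y _ y' _ z ⟨b, hb, e, q⟩ ⟨c, hc, e', q'⟩ =>
      e ▸ e' ▸ s.same h hb hc hv v1 (q.trans q'.symm)) z hz
  exact ⟨b, hb, e⟩

theorem par_half (h : Sim S A B) (hb : b ∈ B) (e : cj(a, B) = cj(b, A)) (hv : v ∈ Om A)
    (hz : z ∈ Om B) (q : cn a z = z * v) : cn b v = v * z := by
  have := cn_mem_Om (g := a) hz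
  rw [e, Om_cj] at this
  obtain ⟨v', hv', q'⟩ := exists_cn this
  obtain ⟨z', hz', q''⟩ := s.actB h hb hv'
  obtain ⟨rfl, rfl⟩ := s.split h hv hv' hz.1 hz'.1 (by rw [← q'', q', q, (h.adj v hv z hz).eq])
  exact q''

theorem par_ex (sq : Sq S) (h : Sim S A B) (hb : b ∈ B) (b2 : b * b ≠ 1) : ∃ a ∈ A, Par A B a b := by
  obtain ⟨v, hv, v1⟩ := s.exOm h.mA
  obtain ⟨z, hz, q⟩ := s.actB h hb hv
  obtain ⟨a, ha, q'⟩ := s.cover sq h.symm hz (s.act_ne h hb b2 hv.1 v1 q) hv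
  have e : cj(a, B) = cj(b, A) := s.ti _ (s.cj B h.mB a) _ (s.cj A h.mA b) _ (cn_mem_cj.2 hz.1)
    (by rw [q', ← (h.adj v hv z hz).eq, ← q]; exact cn_mem_cj.2 hv.1)
    (by simpa using s.act_ne h hb b2 hv.1 v1 q)
  exact ⟨a, ha, fun v hv z hz => ⟨s.par_half h hb e hv hz, s.par_half h.symm ha e.symm hz hv⟩⟩

omit [Finite G] in
theorem par_j (h : Sim S A B) (ha : a ∈ A) (hb : b ∈ B) (p : Par A B a b) (hv : v ∈ Om A)
    (hz : z ∈ Om B) (e : cn b v = v * z) : cn (cn b a) v = z ∧ cn (cn b a) z = v := by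
  have c := h.adj v hv z hz
  have e1 := cn_eq (hz.2.2 b hb).symm
  have e2 := (p v hv z hz).2 e
  have e3 : cn b⁻¹ v = v * z := by
    rw [← cn_inj (g := b), cn_inv_cn, cn_mul, e, e1, mul_assoc, hz.2.1, mul_one]
  constructor
  · rw [cn_cn, e3, cn_mul, e2, cn_eq (hv.2.2 a ha).symm, ← c.eq, ← mul_assoc, hv.2.1, one_mul, e1]
  · rw [cn_cn, cn_eq (hz.2.2 _ (inv_mem hb)).symm, e2, cn_mul, e, e1, c.eq, ← mul_assoc, hz.2.1,
      one_mul]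

theorem par_sw (h : Sim S A B) (ha : a ∈ A) (hb : b ∈ B) (b2 : b * b ≠ 1) (p : Par A B a b) :
    cj(cn b a, A) = B ∧ cj(cn b a, B) = A := by
  obtain ⟨v, hv, v1⟩ := s.exOm h.mA
  obtain ⟨z, hz, q⟩ := s.actB h hb hv
  obtain ⟨e1, e2⟩ := s.par_j h ha hb p hv hz q
  exact ⟨s.ti _ (s.cj A h.mA _) _ h.mB z (e1 ▸ cn_mem_cj.2 hv.1) hz.1 (s.act_ne h hb b2 hv.1 v1 q),
    s.ti _ (s.cj B h.mB _) _ h.mA v (e2 ▸ cn_mem_cj.2 hz.1) hv.1 v1⟩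

theorem par_inv (h : Sim S A B) (ha : a ∈ A) (hb : b ∈ B) (b2 : b * b ≠ 1) (p : Par A B a b) :
    cn (a * a) b = b⁻¹ := by
  obtain ⟨v, hv, v1⟩ := s.exOm h.mA
  obtain ⟨z, hz, q⟩ := s.actB h hb hv
  obtain ⟨e1, e2⟩ := s.par_j h ha hb p hv hz q
  have m : cn (cn b a) a ∈ B := (s.par_sw h ha hb b2 p).1 ▸ cn_mem_cj.2 ha
  have := s.same h m hb hv v1 (by
    rw [q, ← e2, cn_cn_cn, (p v hv z hz).2 q, cn_mul, e1])
  have h2 := s.sqO h.symm ha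
  obtain ⟨y, hy, q'⟩ := s.actB h hb h2
  rw [← cn_mul, (s.par_j h ha hb p h2 hy q').1] at this
  rw [cn_flip q' (h.adj _ h2 y hy), this]; group

theorem par_mul (sq : Sq S) (h : Sim S A B) (ad : Ad A B) (ha : a ∈ A) (ha' : a' ∈ A) (hb : b ∈ B)
    (hc : c ∈ B) (b2 : b * b ≠ 1) (c2 : c * c ≠ 1) (n : b * c * (b * c) ≠ 1) (p : Par A B a b)
    (p' : Par A B a' c) : Par A B (a * a') (b * c) := by
  obtain ⟨a'', ha'', p''⟩ := s.par_ex sq h (mul_mem hb hc) n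
  have h1 := s.sqO h.symm ha
  have h2 := s.sqO h.symm ha'
  have := s.uniq h (mul_mem h1 h2) (s.sqO h.symm ha'') (mul_mem hb hc) n
    ((ad _ h1 _ h2 b hb c hc b2 c2 (s.par_inv h ha hb b2 p) (s.par_inv h ha' hc c2 p')).trans
      (s.par_inv h ha'' (mul_mem hb hc) n p'').symm)
  rw [← sq_mul (s.comm A h.mA a ha a' ha')] at this
  exact fun v hv z hz => s.same' h.symm (mul_mem ha ha') ha'' this hz ▸ p'' v hv z hz

omit [Finite G] in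
theorem act_mul (hA : A ∈ S) (ha : a ∈ A) (hv : v' ∈ A) (e : cn a z = z * v) (e' : cn a' z = z * v') :
    cn (a * a') z = z * (v * v') := by
  rw [mul_cn, e', cn_mul, e, cn_eq (s.comm A hA a ha v' hv), mul_assoc]

omit [Finite G] in
theorem par_F (h : Sim S A B) (ha : a ∈ A) (hb : b ∈ B) (p : Par A B a b) (p' : Par A B a' c)
    (p'' : Par A B (a * a') (b * c)) (hz : z ∈ Om B) (hv : v ∈ Om A) (hv' : v' ∈ Om A) (hx : x ∈ Om B)
    (hy : y ∈ Om B) (e : cn a z = z * v) (e' : cn a' z = z * v') (q : cn b v' = v' * x)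
    (q' : cn c v = v * y) : x * y = z := by
  have := (p'' _ (mul_mem hv hv') z hz).1 (s.act_mul h.mA ha hv'.1 e e')
  rw [cn_mul, s.act_mul h.mB hb hy.1 ((p v hv z hz).1 e) q', s.act_mul h.mB hb hz.1 q
    ((p' v' hv' z hz).1 e'), (h.adj v' hv' _ (mul_mem hz hy)).symm.mul_mul_mul_comm, mul_right_inj,
    (hz.2.2 y hy.1).eq, (hx.2.2 z hz.1).eq, mul_assoc, ← mul_assoc z, hz.2.1, one_mul] at this
  rw [(hx.2.2 y hy.1).eq, this]

theorem q4B (sq : Sq S) (h : Sim S A B) (ad : Ad A B) {d : G} (hb : b ∈ B) (hc : c ∈ B) (hd : d ∈ B)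
    (b2 : b * b ≠ 1) (c2 : c * c ≠ 1) (d2 : d * d ≠ 1) (n1 : b * c * (b * c) ≠ 1)
    (n2 : b * d * (b * d) ≠ 1) (n3 : c * d * (c * d) ≠ 1) (n4 : b * (c * d) * (b * (c * d)) ≠ 1) :
    False := by
  obtain ⟨a, ha, p⟩ := s.par_ex sq h hb b2
  obtain ⟨a', ha', p'⟩ := s.par_ex sq h hc c2
  obtain ⟨a'', ha'', p''⟩ := s.par_ex sq h hd d2
  obtain ⟨z, hz, z1⟩ := s.exOm h.mB
  obtain ⟨v, hv, e⟩ := s.actB h.symm ha hz
  obtain ⟨v', hv', e'⟩ := s.actB h.symm ha' hz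
  obtain ⟨v'', hv'', e''⟩ := s.actB h.symm ha'' hz
  obtain ⟨x, hx, q1⟩ := s.actB h hb hv'
  obtain ⟨y, hy, q2⟩ := s.actB h hc hv
  obtain ⟨x', hx', q3⟩ := s.actB h hb hv''
  obtain ⟨y', hy', q4⟩ := s.actB h hd hv
  have p3 := s.par_mul sq h ad ha' ha'' hc hd c2 d2 n3 p' p''
  have f1 := s.par_F h ha hb p p' (s.par_mul sq h ad ha ha' hb hc b2 c2 n1 p p') hz hv hv' hx hy e e' q1 q2
  have f2 := s.par_F h ha hb p p'' (s.par_mul sq h ad ha ha'' hb hd b2 d2 n2 p p'') hz hv hv'' hx' hy'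
    e e'' q3 q4
  have f3 := s.par_F h ha hb p p3 (s.par_mul sq h ad ha (mul_mem ha' ha'') hb (mul_mem hc hd) b2 n3 n4
    p p3) hz hv (mul_mem hv' hv'') (mul_mem hx hx') (mul_mem hy hy') e
    (s.act_mul h.mA ha' hv''.1 e' e'')
    (by rw [cn_mul, q1, q3, (h.adj v'' hv'' x hx).symm.mul_mul_mul_comm])
    (s.act_mul h.mB hc hy'.1 q2 q4)
  rw [(hx'.2.2 y hy.1).mul_mul_mul_comm, f1, f2, hz.2.1] at f3
  exact z1 f3.symm

theorem q4 (sq : Sq S) (h : Sim S A B) (ad : Ad A B) {w : G} (hx : x ∈ Om B) (hy : y ∈ Om B)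
    (hw : w ∈ Om B) (x1 : x ≠ 1) (y1 : y ≠ 1) (ne : x ≠ y) : w = 1 ∨ w = x ∨ w = y ∨ w = x * y := by
  by_contra! n
  obtain ⟨b, hb, rfl⟩ := sq B h.mB x hx
  obtain ⟨c, hc, rfl⟩ := sq B h.mB y hy
  obtain ⟨d, hd, rfl⟩ := sq B h.mB w hw
  have cm := s.comm B h.mB
  refine s.q4B sq h ad hb hc hd x1 y1 n.1 ?_ ?_ ?_ ?_
  · rw [sq_mul (cm b hb c hc)]; exact mul_ne_one hx.2.1 ne
  · rw [sq_mul (cm b hb d hd)]; exact mul_ne_one hx.2.1 n.2.1.symm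
  · rw [sq_mul (cm c hc d hd)]; exact mul_ne_one hy.2.1 n.2.2.1.symm
  · rw [sq_mul (cm b hb _ (mul_mem hc hd)), sq_mul (cm c hc d hd), ← mul_assoc]
    exact mul_ne_one (mul_mem hx hy).2.1 n.2.2.2.symm

theorem rot (sq : Sq S) (h : Sim S A B) : ∃ r, Rot A B r := by
  obtain ⟨x, hx, y, hy, x2, y2, x1, y1, ne⟩ := s.rk B h.mB
  obtain ⟨b, hb, rfl⟩ := sq B h.mB x (s.om h.mB hx x2)
  obtain ⟨c, hc, rfl⟩ := sq B h.mB y (s.om h.mB hy y2)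
  obtain ⟨a, ha, p⟩ := s.par_ex sq h hb x1
  obtain ⟨a', ha', p'⟩ := s.par_ex sq h hc y1
  obtain ⟨e1, e2⟩ := s.par_sw h ha hb x1 p
  obtain ⟨e3, e4⟩ := s.par_sw h ha' hc y1 p'
  refine ⟨cn b a * cn c a', mul_mem (cn_mem' (mem_sup_right hb) (mem_sup_left ha))
    (cn_mem' (mem_sup_right hc) (mem_sup_left ha')), cj_eq_iff.1 (by rw [cj_mul, e3, e2]),
    cj_eq_iff.1 (by rw [cj_mul, e4, e1]), fun z hz e => ?_⟩
  obtain ⟨v, hv, q⟩ := s.actB h.symm ha' hz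
  obtain ⟨x, hx, q'⟩ := s.actB h hb hv
  replace q := (p' v hv z hz).1 q
  rw [mul_cn, (s.par_j h ha' hc p' hv hz q).2, (s.par_j h ha hb p hv hx q').1] at e
  by_contra z1
  refine ne (s.same h hb hc hv ?_ (by rw [q, q', e]))
  rintro rfl
  exact z1 (by simpa using q.symm)

end Sys

end Cfsg.Agent.TIB
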