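import Mathlib
import Cfsg.Agent.TIB.Line

/-! Two lines normalizing each other: no two points commute. -/

set_option autoImplicit false

namespace Cfsg.Agent.TIB

open Subgroup Cfsg.Agent.PLocal.Amb

variable {G : Type*} [Group G]

/-- `b` acts on the involutions of `A` as `w` and is inverted by `w` -/
def Act (A : Subgroup G) (w b : G) : Prop := (∀ v ∈ Om A, cn b v = cn w v) ∧ cn w b = b⁻¹

theorem flip2 {a b z : G} (h : cn a b = b * z) (h1 : Commute z b) (h2 : Commute z a) (z2 : z * z = 1) :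
    cn b a = a * z := by rw [cn_flip h h1.symm, inv_of_sq z2, h2.eq]

theorem vb_sq {v b : G} (v2 : v * v = 1) (h : cn v b = b⁻¹) : v * b * (v * b) = 1 := by
  rw [← mul_assoc, ← inv_mul_cancel b, ← h, cn, inv_of_sq v2]

theorem inv_of_vb {v b : G} (v2 : v * v = 1) (h : v * b * (v * b) = 1) : cn v b = b⁻¹ := by
  rw [cn, inv_of_sq v2, eq_inv_iff_mul_eq_one, mul_assoc, h]

namespace Sys

variable {S : Set (Subgroup G)} (s : Sys S) {A B A₁ A₂ X Y : Subgroup G} {b b' c d h v v' w x y z : G}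
include s

theorem bow_cj (hb : Bow S B A₁ A₂) (g : G) : Bow S cj(g, B) cj(g, A₁) cj(g, A₂) := by
  obtain ⟨d₁, h1, d₂, h2, e, n⟩ := hb.ex
  exact ⟨s.sim_cj hb.s1 g, s.sim_cj hb.s2 g, _, cn_mem_Om h1, _, cn_mem_Om h2, by
    rw [cn_cn_cn, ← cn_mul]; exact cn_mem_Om e, mt comm_cn.1 n⟩

theorem ad_sym (h : Sim S A B) (ad : Ad A B) (hv : v ∈ Om A) (hv' : v' ∈ Om A) (hb : b ∈ B) (hc : c ∈ B)
    (b2 : b * b ≠ 1) (c2 : c * c ≠ 1) (i : cn v b = b⁻¹) (i' : cn v' c = c⁻¹) (hx : x ∈ Om B)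
    (hy : y ∈ Om B) (e : cn v c = c * x) (e' : cn v' b = b * y) : x = y := by
  have := ad v hv v' hv' b hb c hc b2 c2 i i'
  rw [mul_cn, cn_mul, e', i', cn_mul, cn_mul, i, cn_inv, e, cn_eq (h.adj v hv y hy),
    (s.comm B h.mB b hb c hc).eq, mul_inv_rev, mul_inv_rev, mul_assoc, mul_right_inj, ← mul_assoc,
    mul_eq_right, mul_inv_eq_one] at this
  exact this.symm

variable [Finite G]

theorem bow_a (h : Sim S A B) (hd : d ∈ Om A) (w2 : w * w = 1) (cw : ∀ z ∈ Om B, Commute w z)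
    (e : cn w d * d ∈ Om B) (n : ¬ Commute w d) : ∃ b ∈ B, b * b ≠ 1 ∧ Act A w b := by
  have d1 : d ≠ 1 := by rintro rfl; simp at n
  have t1 := cn_mul_ne hd.2.1 n
  have c := (h.adj d hd _ e).mul_right (Commute.refl d)
  rw [mul_assoc, hd.2.1, mul_one] at c
  rcases s.key' h w2 cw (s.adj_of_comm (s.cj A h.mA w) h.mA (cn_mem_cj.2 hd.1) hd.1 (by simpa using d1)
    d1 c.symm) with q | ⟨P, hP, p, hp, p1, -, -, h1, h2, h3⟩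
  · obtain ⟨a, ha, a1⟩ := s.exN h.mA
    exact absurd (s.fr h ha a1 e.1 ((q _ (cn_mem_cj.2 hd.1) a ha).symm.mul_right (hd.2.2 a ha).symm)) t1
  · obtain rfl := s.ti P hP B h.mB _ (h1 d hd).1 e.1 t1
    exact ⟨p, hp, fun q => p1 (s.om hP hp q), h2, h3⟩

theorem act_bow (h : Sim S A B) (hb : b ∈ B) (b2 : b * b ≠ 1) (a : Act A w b) (hv : v ∈ Om A)
    (v1 : v ≠ 1) : cn w v * v ∈ Om B ∧ ¬ Commute w v := by
  obtain ⟨z, hz, q⟩ := s.actB h hb hv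
  refine ⟨?_, fun c => s.act_ne h hb b2 hv.1 v1 q ?_⟩
  · rwa [← a.1 v hv, q, (h.adj v hv z hz).eq, mul_assoc, hv.2.1, mul_one]
  · rwa [a.1 v hv, cn_eq c, left_eq_mul] at q

theorem vb_mul (h : Sim S A B) (ad : Ad A B) (hv : v ∈ Om A) (hv' : v' ∈ Om A) (hb : b ∈ B) (hc : c ∈ B)
    (b2 : b * b ≠ 1) (c2 : c * c ≠ 1) (i : cn v b = b⁻¹) (i' : cn v' c = c⁻¹) :
    Commute (v * b) (v' * c) ∧ ∃ y ∈ Om B, v * b * (v' * c) = v * v' * (b * c * y) := by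
  obtain ⟨y, hy, q⟩ := s.actO h hv' hb
  have e : v * b * (v' * c) = v * v' * (b * c * y) := by
    rw [mul_assoc b, ← (hy.2.2 c hc).eq, ← mul_assoc b, ← q, cn, inv_of_sq hv'.2.1]
    simp only [← mul_assoc, mul_assoc v v', hv'.2.1, mul_one]
  refine ⟨comm_of_sq (vb_sq hv.2.1 i) (vb_sq hv'.2.1 i') ?_, y, hy, e⟩
  rw [e]
  exact vb_sq (mul_mem hv hv').2.1 (s.inv_same h.mB (h.adj _ (mul_mem hv hv')) (mul_mem hb hc)
    (mul_mem (mul_mem hb hc) hy.1) (s.sqz h.mB (mul_mem hb hc) hy).symm (ad v hv v' hv' b hb c hc b2 c2 i i'))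

theorem prodD (sq : Sq S) (hX : X ∈ S) (hY : Y ∈ S) (hx : x ∈ Om X) (hy : y ∈ Om Y) (c : Commute x y) :
    x * y ∈ D S ∨ Com X Y := by
  by_cases n : Com X Y
  · exact Or.inr n
  by_cases x1 : x = 1
  · exact Or.inl ⟨Y, hY, by simpa [x1] using hy⟩
  by_cases y1 : y = 1
  · exact Or.inl ⟨X, hX, by simpa [y1] using hx⟩
  obtain ⟨b, -, e⟩ := s.cover sq ⟨hX, hY, s.adj_of_comm hX hY hx.1 hy.1 x1 y1 c, n⟩ hx x1 hy
  exact Or.inl (e ▸ s.cn_D ⟨X, hX, hx⟩ b)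

section
variable (bo : Bow S B A₁ A₂)
include bo

theorem act' (hw : w ∈ Om A₂) (w1 : w ≠ 1) : ∃ b ∈ B, b * b ≠ 1 ∧ Act A₁ w b := by
  obtain ⟨d₁, h1, d₂, h2, e, n⟩ := bo.symm.ex
  obtain ⟨b, hb, b2, a⟩ := s.bow_a bo.s2 h1 h2.2.1 (bo.s1.adj _ h2) e n
  obtain ⟨e', n'⟩ := s.act_bow bo.s2 hb b2 a hw w1
  exact s.bow_a bo.s1 h2 hw.2.1 (bo.s2.adj w hw) (cn_mul_swap hw.2.1 h2.2.1 ▸ inv_mem e') fun c => n' c.symm

theorem faith (hw : w ∈ Om A₂) (hv : v ∈ Om A₁) (v1 : v ≠ 1) (c : Commute w v) : w = 1 := by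
  by_contra w1
  obtain ⟨b, hb, b2, a⟩ := s.act' bo hw w1
  exact (s.act_bow bo.s1 hb b2 a hv v1).2 c

theorem feq {w' : G} (hw : w ∈ Om A₂) (hw' : w' ∈ Om A₂) (hv : v ∈ Om A₁) (v1 : v ≠ 1)
    (e : cn w v = cn w' v) : w = w' :=
  eq_of_mul_eq_one hw.2.1 (s.faith bo (mul_mem hw hw') hv v1 (comm_of_cn (by
    rw [mul_cn, ← e, cn_invol hw.2.1])))

theorem act0 (hz : z ∈ Om B) : ∃ w ∈ Om A₂, ∃ b ∈ B, Act A₁ w b ∧ b * b = z := by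
  obtain ⟨v, hv, v1⟩ := s.exOm bo.s1.mA
  exact surj_rel (s.card_Om bo.s2.mB bo.s2.mA).le (fun w z => ∃ b ∈ B, Act A₁ w b ∧ b * b = z)
    (fun w hw => by
      by_cases w1 : w = 1
      · exact ⟨1, one_mem _, 1, one_mem _, ⟨fun _ _ => by rw [w1], by simp⟩, mul_one _⟩
      obtain ⟨b, hb, -, a⟩ := s.act' bo hw w1
      exact ⟨_, s.sqO bo.s1 hb, b, hb, a, rfl⟩)
    (fun w hw w' hw' z ⟨b, hb, a, e⟩ ⟨c, hc, a', e'⟩ => s.feq bo hw hw' hv v1 (by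
      rw [← a.1 v hv, ← a'.1 v hv, s.same' bo.s1 hb hc (e.trans e'.symm) hv])) z hz

theorem act (hc : c ∈ B) : ∃ w ∈ Om A₂, Act A₁ w c := by
  obtain ⟨w, hw, b, hb, a, e⟩ := s.act0 bo (s.sqO bo.s1 hc)
  exact ⟨w, hw, fun v hv => by rw [← a.1 v hv, s.same' bo.s1 hb hc e hv],
    s.inv_same bo.s1.mB (bo.s2.adj w hw) hb hc e a.2⟩

theorem act_of (hw : w ∈ Om A₂) (hb : b ∈ B) (b2 : b * b ≠ 1) (i : cn w b = b⁻¹) : Act A₁ w b := by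
  obtain ⟨w', hw', a⟩ := s.act bo hb
  rwa [s.uniq bo.s2 hw hw' hb b2 (i.trans a.2.symm)]

theorem ad : Ad A₂ B := fun w hw w' hw' b hb c hc b2 c2 i i' => by
  obtain ⟨v, hv, v1⟩ := s.exOm bo.s1.mA
  obtain ⟨u, hu, a⟩ := s.act bo (mul_mem hb hc)
  obtain ⟨z, hz, q⟩ := s.actB bo.s1 hc hv
  rw [s.feq bo (mul_mem hw hw') hu hv v1 (by
    rw [← a.1 v hv, mul_cn, mul_cn, ← (s.act_of bo hw' hc c2 i').1 v hv, q, cn_mul, cn_mul,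
      (s.act_of bo hw hb b2 i).1 v hv, cn_eq (bo.s2.adj w hw z hz), cn_eq (hz.2.2 b hb).symm]), a.2]

theorem sym (hv : v ∈ Om A₁) (hw : w ∈ Om A₂) (hb : b ∈ B) (b2 : b * b ≠ 1) (i : cn v b = b⁻¹)
    (i' : cn w b = b⁻¹) (hc : c ∈ B) : cn v c = cn w c := by
  by_cases c2 : c * c = 1
  · have := s.om bo.s1.mB hc c2
    rw [cn_eq (bo.s1.adj v hv c this), cn_eq (bo.s2.adj w hw c this)]
  obtain ⟨u, hu, a⟩ := s.act bo.symm hc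
  obtain ⟨x, hx, q⟩ := s.actO bo.s1 hv hc
  obtain ⟨y, hy, q'⟩ := s.actO bo.s1 hu hb
  obtain rfl := s.ad_sym bo.s1 (s.ad bo.symm) hv hu hb hc b2 c2 i a.2 hx hy q q'
  have c1 := (bo.s1.adj u hu x hx).symm
  have c2 := (bo.s2.adj w hw x hx).symm
  have e := flip2 q' (hx.2.2 b hb) c1 hx.2.1
  rw [(s.act_of bo hw hb b2 i').1 u hu] at e
  have e' := flip2 e c1 c2 hx.2.1
  rw [← a.1 w hw] at e'
  rw [q, flip2 e' c2 (hx.2.2 c hc) hx.2.1]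

theorem dec (hw : w ∈ Om A₂) (w1 : w ≠ 1) : ∃ v ∈ Om A₁, ∃ b ∈ B, ∃ e ∈ 𝐂[A₁] ⊓ 𝐂[B],
    b * b ≠ 1 ∧ cn v b = b⁻¹ ∧ e * e = 1 ∧ w = v * b * e := by
  obtain ⟨b, hb, b2, a⟩ := s.act' bo hw w1
  obtain ⟨v, hv, a'⟩ := s.act bo.symm hb
  obtain ⟨u, hu, u1⟩ := s.exOm bo.s1.mA
  obtain ⟨y, hy, q⟩ := s.actB bo.s1 hb hu
  obtain ⟨z, hz, e, he, q'⟩ := s.cent bo.s1 (c := b⁻¹ * (v * w)) (mul_mem (inv_mem (mem_C.2
    (s.comm B bo.s1.mB b hb))) (mem_C.2 fun c hc => comm_of_cn (by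
      rw [mul_cn, ← s.sym bo hv hw hb b2 a'.2 a.2 hc, cn_invol hv.2.1]))) hu u1 (comm_of_cn (by
    rw [mul_cn, mul_cn, ← a.1 u hu, q, cn_mul, cn_eq (hv.2.2 u hu.1), cn_eq (bo.s1.adj v hv y hy), ← q,
      inv_cn]))
  have e1 := s.sqz bo.s1.mB hb hz
  have i := s.inv_same bo.s1.mB (bo.s1.adj v hv) hb (mul_mem hb hz.1) e1.symm a'.2
  have e2 : w = v * (b * z) * e := by
    rw [mul_assoc, mul_assoc, ← q', mul_inv_cancel_left, ← mul_assoc, hv.2.1, one_mul]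
  refine ⟨v, hv, _, mul_mem hb hz.1, e, he, e1 ▸ b2, i, ?_, e2⟩
  have := hw.2.1
  rwa [e2, sq_mul ((mem_C.1 he.1 v hv.1).mul_right (mem_C.1 he.2 _ (mul_mem hb hz.1))).symm,
    vb_sq hv.2.1 i, one_mul] at this

theorem rotw (r : Rot A₁ B h) (hw : w ∈ Om A₂) (w1 : w ≠ 1) (hz : z ∈ Om B) : Commute (w * z) (cn h w) ∧
    ∃ v ∈ Om A₁, ∃ b ∈ B, b * b ≠ 1 ∧ w * z * cn h w = v * b := by
  obtain ⟨v, hv, b, hb, e, he, b2, i, e2, rfl⟩ := s.dec bo hw w1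
  have hB := bo.s1.mB
  have e1 := s.sqz hB hb hz
  have hv' := cn_Om r.nA hv
  have hb' := cn_mem r.nB hb
  obtain ⟨c, y, hy, q⟩ := s.vb_mul bo.s1 (s.ad bo.symm) hv hv' (mul_mem hb hz.1) hb' (e1 ▸ b2)
    (mt sq_cn.1 b2) (s.inv_same hB (bo.s1.adj v hv) hb (mul_mem hb hz.1) e1.symm i)
    (by rw [cn_cn_cn, i, cn_inv])
  have c1 : ∀ v ∈ Om A₁, ∀ b ∈ B, Commute e (v * b) := fun v hv b hb =>
    (mem_C.1 he.1 v hv.1).mul_right (mem_C.1 he.2 b hb)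
  rw [mul_assoc _ e, (mem_C.1 he.2 z hz.1).eq, ← mul_assoc, mul_assoc v, cn_mul, cn_mul, r.cE he]
  refine ⟨(c.mul_right (c1 v hv _ (mul_mem hb hz.1)).symm).mul_left
    ((c1 _ hv' _ hb').mul_right (Commute.refl e)), _, mul_mem hv hv', _,
    mul_mem (mul_mem (mul_mem hb hz.1) hb') hy.1, ?_, by
      rw [(c1 _ hv' _ hb').mul_mul_mul_comm, e2, mul_one, q]⟩
  rw [s.sqz hB (mul_mem (mul_mem hb hz.1) hb') hy, sq_mul (s.comm B hB _ (mul_mem hb hz.1) _ hb'), e1,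
    ← cn_mul]
  exact mul_ne_one (s.sqO bo.s1 hb).2.1 fun e => b2 (r.fpf _ (s.sqO bo.s1 hb) e.symm)

theorem dag (sq : Sq S) : ∃ v ∈ Om A₁, ∃ b ∈ B, b * b ≠ 1 ∧ v * b ∈ D S := by
  obtain ⟨h, r⟩ := s.rot sq bo.s1
  obtain ⟨w, hw, w1⟩ := s.exOm bo.s2.mA
  obtain ⟨o, ho, o2⟩ := s.four B bo.s1.mB
  obtain ⟨z, hz, q⟩ := s.actB bo.s2 ho hw
  have h3 := s.sim_cj' bo.s2 r.nB
  obtain ⟨c, v, hv, b, hb, b2, e⟩ := s.rotw bo r hw w1 (one_mem _)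
  obtain ⟨c', v', hv', b', hb', b2', e'⟩ := s.rotw bo r hw w1 hz
  rw [mul_one] at c e
  rw [← q] at c' e'
  rcases s.prodD sq bo.s2.mA h3.mA hw (cn_mem_Om hw) c with m | m
  · exact ⟨v, hv, b, hb, b2, e ▸ m⟩
  rcases s.prodD sq (s.cj _ bo.s2.mA o) h3.mA (cn_mem_Om hw) (cn_mem_Om hw) c' with m' | m'
  · exact ⟨v', hv', b', hb', b2', e' ▸ m'⟩
  refine absurd (s.com_of h3.mA h3.mB hz.1 (s.act_ne bo.s2 ho o2 hw.1 w1 q) fun a ha => ?_) h3.nc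
  have := (m w hw.1 a ha).inv_left.mul_left (m' _ (cn_mem_cj.2 hw.1) a ha)
  rw [q, inv_mul_cancel_left] at this
  exact this.symm

theorem noP (sq : Sq S) (hX : X ∈ S) (h1 : Com X A₁) (h2 : Com X B) : False := by
  obtain ⟨v, hv, b, hb, b2, U, hU, m⟩ := s.dag bo sq
  obtain ⟨u, hu, u1⟩ := s.exOm bo.s1.mA
  have n : ¬ Commute (v * b) u := fun c => u1 (s.fr bo.s1.symm hb (nOm b2) hu.1 (by
    simpa using (hv.2.2 u hu.1).inv_left.mul_left c))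
  exact n (s.perp_adj hU bo.s1.mA hX (s.com_of hX hU m.1 (fun e => n (by simp [e])) fun x hx =>
    (h1 x hx v hv.1).mul_right (h2 x hx b hb)).symm h1.symm _ m u hu)

theorem noE (sq : Sq S) (hx : x ∈ D S) (he : x ∈ 𝐂[A₁] ⊓ 𝐂[B]) : x = 1 := by
  by_contra x1
  obtain ⟨X, hX, hx⟩ := hx
  exact s.noP bo sq hX (s.com_of bo.s1.mA hX hx.1 x1 fun a ha => (mem_C.1 he.1 a ha).symm).symm
    (s.com_of bo.s1.mB hX hx.1 x1 fun a ha => (mem_C.1 he.2 a ha).symm).symm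

theorem perp_z (sq : Sq S) (hY : Y ∈ S) (c : Com Y B) (hz : z ∈ Om B) :
    ∃ y ∈ Om Y, ∃ e ∈ 𝐂[A₁] ⊓ 𝐂[B], y = z * e := by
  obtain ⟨v, hv, v1⟩ := s.exOm bo.s1.mA
  have a := (s.pcase bo.s1 hY c).resolve_right fun ⟨P, h1, h2⟩ => s.noP h1.symm sq bo.s1.mB c.symm h2.symm
  obtain ⟨y, hy, -, h⟩ := surj_rel (s.card_Om bo.s1.mB hY).le
    (fun y z => z ∈ Om B ∧ ∃ e ∈ 𝐂[A₁] ⊓ 𝐂[B], y = z * e)
    (fun y hy => by
      obtain ⟨z, hz, h⟩ := s.cent bo.s1 (mem_C.2 (c y hy.1)) hv v1 (a v hv y hy).symm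
      exact ⟨z, hz, hz, h⟩)
    (fun y hy y' hy' z ⟨hz, e, he, q⟩ ⟨_, e', he', q'⟩ => eq_of_mul_eq_one hy.2.1
      (s.noE bo sq ⟨Y, hY, mul_mem hy hy'⟩ (by
        rw [q, q', (mem_C.1 he.2 z hz.1).mul_mul_mul_comm, hz.2.1, one_mul]
        exact mul_mem he he'))) z hz
  exact ⟨y, hy, h⟩

theorem noPerp (sq : Sq S) (hX : X ∈ S) (c : Com X B) : X = B := by
  by_contra n
  obtain ⟨Y, hY, c', sm⟩ := s.exists_sim hX bo.s1.mB c n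
  obtain ⟨z, hz, z1⟩ := s.exOm bo.s1.mB
  obtain ⟨x, hx, e, he, q⟩ := s.perp_z bo sq hX c hz
  obtain ⟨y, hy, e', he', q'⟩ := s.perp_z bo sq hY c' hz
  obtain rfl := eq_of_mul_eq_one hy.2.1 (s.noE bo sq
    ((s.prodD sq hY hX hy hx (sm.adj y hy x hx)).resolve_right sm.nc) (by
      rw [q, q', (mem_C.1 he'.2 z hz.1).mul_mul_mul_comm, hz.2.1, one_mul]
      exact mul_mem he' he))
  obtain ⟨a, ha, a1⟩ := s.exN bo.s1.mA
  rw [(s.sp sm).dis y hy.1 hx.1, eq_comm, mul_eq_one_iff_eq_inv] at q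
  exact z1 (s.fr bo.s1 ha a1 hz.1 (q ▸ (mem_C.1 he.1 a ha).symm.inv_right))

end

end Sys

end Cfsg.Agent.TIB
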