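import Mathlib
import Cfsg.Agent.TIB.Bow

/-! Two lines through each point. -/

set_option autoImplicit false

namespace Cfsg.Agent.TIB

open Subgroup Cfsg.Agent.PLocal.Amb

variable {G : Type*} [Group G]

/-- every point is the centre of a bow -/
def AllBow (S : Set (Subgroup G)) : Prop := ∀ B ∈ S, ∃ A₁ A₂, Bow S B A₁ A₂

theorem E_pt {A B : Subgroup G} {b x : G} (hb : b ∈ B) (h : x ∈ 𝐂[cj(b, A)] ⊓ 𝐂[B]) : x ∈ 𝐂[A] ⊓ 𝐂[B] :=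
  ⟨mem_C.2 fun a ha => by
    rw [← comm_cn (g := b), cn_eq (mem_C.1 h.2 b hb).symm]
    exact mem_C.1 h.1 _ (cn_mem_cj.2 ha), h.2⟩

namespace Sys

variable {S : Set (Subgroup G)} (s : Sys S) {A B A₁ A₂ X Y : Subgroup G} {b c d h t v w x y z : G}
include s

theorem allBow (bo : Bow S B A₁ A₂) : AllBow S := fun X hX => by
  obtain ⟨g, rfl⟩ := s.tr B bo.s1.mB X hX
  exact ⟨_, _, s.bow_cj bo g⟩

theorem memJ (h : Sim S A B) : x ∈ Om A ⊔ B ↔ ∃ v ∈ Om A, ∃ b ∈ B, x = v * b :=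
  mem_sup_of_le_normalizer_right (s.adj_N h.mB h.adj)

omit s in
theorem QJ (A B : Subgroup G) : Om A ⊔ Om B ≤ Om A ⊔ B := sup_le_sup_left (fun _ h => h.1) _

variable [Finite G]

theorem memQ (h : Sim S A B) : x ∈ Om A ⊔ Om B ↔ ∃ v ∈ Om A, ∃ z ∈ Om B, x = v * z :=
  mem_sup_of_le_normalizer_right fun _ hv => mem_N fun _ hz => cn_Om (s.adj_N h.mB h.adj hv) hz

theorem sqQ (h : Sim S A B) (hx : x ∈ Om A ⊔ Om B) : x * x = 1 := by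
  obtain ⟨v, hv, z, hz, rfl⟩ := (s.memQ h).1 hx
  exact sq_mul_one (h.adj v hv z hz) hv.2.1 hz.2.1

theorem commQ (h : Sim S A B) (hx : x ∈ Om A ⊔ Om B) (hy : y ∈ Om A ⊔ Om B) : Commute x y :=
  comm_of_sq (s.sqQ h hx) (s.sqQ h hy) (s.sqQ h (mul_mem hx hy))

theorem cjQ (h : Sim S A B) (hb : b ∈ B) : Om cj(b, A) ≤ Om A ⊔ Om B := fun x hx => by
  obtain ⟨v, hv, rfl⟩ := exists_cn (Om_cj b A ▸ hx)
  obtain ⟨z, hz, q⟩ := s.actB h hb hv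
  exact q ▸ mul_mem_sup hv hz

variable (bw : AllBow S)
include bw

theorem sq : Sq S := fun B hB z hz => by
  obtain ⟨_, _, bo⟩ := bw B hB
  obtain ⟨_, -, b, hb, -, e⟩ := s.act0 bo hz
  exact ⟨b, hb, e⟩

theorem np (hX : X ∈ S) (hY : Y ∈ S) (c : Com X Y) : X = Y := by
  obtain ⟨_, _, bo⟩ := bw Y hY
  exact s.noPerp bo (s.sq bw) hX c

theorem four4 (hB : B ∈ S) (hx : x ∈ Om B) (hy : y ∈ Om B) (hw : w ∈ Om B) (x1 : x ≠ 1) (y1 : y ≠ 1)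
    (ne : x ≠ y) : w = 1 ∨ w = x ∨ w = y ∨ w = x * y := by
  obtain ⟨_, _, bo⟩ := bw B hB
  exact s.q4 (s.sq bw) bo.s2 (s.ad bo) hx hy hw x1 y1 ne

theorem Om_le (hB : B ∈ S) {K : Subgroup G} (hx : x ∈ Om B) (hy : y ∈ Om B) (x1 : x ≠ 1) (y1 : y ≠ 1)
    (ne : x ≠ y) (xK : x ∈ K) (yK : y ∈ K) : Om B ≤ K := fun w hw => by
  rcases s.four4 bw hB hx hy hw x1 y1 ne with rfl | rfl | rfl | rfl
  exacts [one_mem _, xK, yK, mul_mem xK yK]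

theorem mulD (hx : x ∈ D S) (hy : y ∈ D S) (c : Commute x y) : x * y ∈ D S := by
  obtain ⟨X, hX, hx⟩ := hx
  obtain ⟨Y, hY, hy⟩ := hy
  refine (s.prodD (s.sq bw) hX hY hx hy c).elim id fun e => ?_
  obtain rfl := s.np bw hX hY e
  exact ⟨X, hX, mul_mem hx hy⟩

theorem QD (h : Sim S A B) (hx : x ∈ Om A ⊔ Om B) : x ∈ D S := by
  obtain ⟨v, hv, z, hz, rfl⟩ := (s.memQ h).1 hx
  exact s.mulD bw ⟨A, h.mA, hv⟩ ⟨B, h.mB, hz⟩ (h.adj v hv z hz)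

/-- there are no triangles -/
theorem notri (h : Sim S A B) (hd : d ∈ D S) (hv : v ∈ Om A) (v1 : v ≠ 1) (c : Commute d v)
    (c' : ∀ z ∈ Om B, Commute d z) : d ∈ Om A ⊔ Om B := by
  have cA := s.cent_Om h (s.mem_N_of h.mA hv.1 v1 c) c'
  obtain ⟨a, ha, a2⟩ := s.four A h.mA
  obtain ⟨u, hu, q⟩ := s.kB h.symm cA ha
  obtain ⟨z, hz, q'⟩ := (s.sp h).surj ha (nOm a2) hu
  obtain ⟨U, hU, m⟩ := s.mulD bw hd ⟨B, h.mB, hz⟩ (c' z hz)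
  rw [← mul_mem_cancel_right (mem_sup_right hz)]
  by_cases e : d * z = 1
  · exact e ▸ one_mem _
  obtain rfl := s.np bw h.mA hU (s.com_of_four h.mA hU ha a2 (s.mem_N_of hU m.1 e (comm_of_cn (by
    rw [mul_cn, flip2 q' (h.adj u hu z hz) (hu.2.2 a ha) hu.2.1, cn_mul, q, cn_eq (cA u hu), mul_assoc,
      hu.2.1, mul_one])).symm))
  exact mem_sup_left m

/-- the points on a line -/
theorem pt (h : Sim S A B) (hX : X ∈ S) (hx : x ∈ X) (m : x ∈ Om A ⊔ Om B) (n : x ∉ B) :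
    ∃ b ∈ B, cj(b, A) = X := by
  obtain ⟨v, hv, z, hz, rfl⟩ := (s.memQ h).1 m
  obtain ⟨b, hb, q⟩ := s.cover (s.sq bw) h hv (by rintro rfl; exact n (by simpa using hz.1)) hz
  exact ⟨b, hb, s.ti _ (s.cj A h.mA b) _ hX _ (q ▸ cn_mem_cj.2 hv.1) hx fun e => n (e ▸ one_mem _)⟩

theorem ptQ (h : Sim S A B) (hX : X ∈ S) (hx : x ∈ X) (m : x ∈ Om A ⊔ Om B) (n : x ∉ B) :
    Om X ≤ Om A ⊔ Om B := by
  obtain ⟨b, hb, rfl⟩ := s.pt bw h hX hx m n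
  exact s.cjQ h hb

section
variable (bo : Bow S B A₁ A₂)
include bo

theorem hfix (r : Rot A₁ B h) : ∃ b ∈ B, cj(b, A₂) = cj(h, A₂) := by
  obtain ⟨w, hw, w1⟩ := s.exOm bo.s2.mA
  have h3 := s.sim_cj' bo.s2 r.nB
  have c := (s.rotw bo r hw w1 (one_mem _)).1
  rw [mul_one] at c
  exact s.pt bw bo.s2 h3.mA (cn_mem_cj.2 hw.1) (s.notri bw bo.s2 (s.cn_D ⟨_, bo.s2.mA, hw⟩ h) hw w1 c.symm
    (h3.adj _ (cn_mem_Om hw))) fun e => w1 (cn_eq_one.1 ((s.sp h3).dis _ (cn_mem_cj.2 hw.1) e))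

theorem hQ (r : Rot A₁ B h) (hx : x ∈ Om A₂ ⊔ Om B) : cn h x ∈ Om A₂ ⊔ Om B := by
  obtain ⟨w, hw, z, hz, rfl⟩ := (s.memQ bo.s2).1 hx
  obtain ⟨b, hb, e⟩ := s.hfix bw bo r
  exact cn_mul h w z ▸ mul_mem (s.cjQ bo.s2 hb (e ▸ cn_mem_Om hw)) (mem_sup_right (cn_Om r.nB hz))

theorem leJ : Om A₂ ≤ Om A₁ ⊔ B := by
  obtain ⟨h, r⟩ := s.rot (s.sq bw) bo.s1
  obtain ⟨w, hw, w1⟩ := s.exOm bo.s2.mA
  obtain ⟨u, hu, u1⟩ := s.exOm bo.s1.mA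
  obtain ⟨-, v, hv, b, hb, b2, e⟩ := s.rotw bo r hw w1 (one_mem _)
  have key : ∀ v ∈ Om A₁, ∀ b ∈ B, v * b ∈ Om A₂ ⊔ Om B →
      ∃ w ∈ Om A₂, w ∈ Om A₁ ⊔ B ∧ cn w u = cn b u := fun v hv b hb m => by
    obtain ⟨w, hw, z, hz, q⟩ := (s.memQ bo.s2).1 m
    obtain ⟨y, hy, q'⟩ := s.actB bo.s1 hb hu
    refine ⟨w, hw, (mul_mem_cancel_right (mem_sup_right hz.1)).1 (q ▸ mul_mem_sup hv hb), ?_⟩
    rw [← cn_eq (bo.s1.adj u hu z hz).symm, ← mul_cn, ← q, mul_cn, cn_eq (bo.s1.adj u hu z hz).symm, q',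
      cn_mul, cn_eq (hv.2.2 u hu.1), cn_eq (bo.s1.adj v hv y hy)]
  have m : v * b ∈ Om A₂ ⊔ Om B := by
    rw [← e, mul_one]
    exact mul_mem (mem_sup_left hw) (s.hQ bw bo r (mem_sup_left hw))
  have hb' := cn_mem r.nB hb
  obtain ⟨w₁, h1, m1, q1⟩ := key v hv b hb m
  obtain ⟨w₂, h2, m2, q2⟩ := key _ (cn_Om r.nA hv) _ hb' (cn_mul h v b ▸ s.hQ bw bo r m)
  refine s.Om_le bw bo.s2.mA h1 h2 ?_ ?_ ?_ m1 m2
  · rintro rfl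
    exact b2 ((s.same bo.s1 hb (one_mem _) hu u1 q1.symm).trans (mul_one _))
  · rintro rfl
    exact b2 (sq_cn.1 ((s.same bo.s1 hb' (one_mem _) hu u1 q2.symm).trans (mul_one _)))
  · rintro rfl
    exact b2 (r.fpf _ (s.sqO bo.s1 hb) (by rw [cn_mul, s.same bo.s1 hb' hb hu u1 (q2.symm.trans q1)]))

theorem vb_eq (hv : v ∈ Om A₁) (hb : b ∈ B) (b2 : b * b ≠ 1) (i : cn v b = b⁻¹) :
    ∃ w ∈ Om A₂, ∃ z ∈ Om B, v * b = w * z := by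
  obtain ⟨u, hu, u1⟩ := s.exOm bo.s1.mA
  obtain ⟨w, hw, a⟩ := s.act bo hb
  obtain ⟨v', hv', c, hc, rfl⟩ := (s.memJ bo.s1).1 (s.leJ bw bo hw)
  obtain ⟨y, hy, q⟩ := s.actB bo.s1 hc hu
  have e := s.same bo.s1 hc hb hu u1 (by
    rw [a.1 u hu, mul_cn, q, cn_mul, cn_eq (hv'.2.2 u hu.1), cn_eq (bo.s1.adj v' hv' y hy)])
  obtain ⟨z, hz, e'⟩ := s.omsq bo.s1.mB hc hb e
  refine ⟨_, hw, z, hz, ?_⟩
  rw [s.uniq bo.s1 hv hv' hb b2 (by rw [i, ← a.2, mul_cn, cn_eq (s.comm B bo.s1.mB c hc b hb)]), e',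
    mul_assoc]

theorem invol (hx : x ∈ Om A₁ ⊔ B) (x2 : x * x = 1) : x ∈ Om A₁ ⊔ Om B ∨ x ∈ Om A₂ ⊔ Om B := by
  obtain ⟨v, hv, b, hb, rfl⟩ := (s.memJ bo.s1).1 hx
  by_cases b2 : b * b = 1
  · exact Or.inl (mul_mem_sup hv (s.om bo.s1.mB hb b2))
  obtain ⟨w, hw, z, hz, e⟩ := s.vb_eq bw bo hv hb b2 (inv_of_vb hv.2.1 x2)
  exact Or.inr (e ▸ mul_mem_sup hw hz)

theorem Bgen (hb : b ∈ B) : ∃ v ∈ Om A₁, ∃ w ∈ Om A₂, ∃ z ∈ Om B, b = v * (w * z) := by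
  by_cases b2 : b * b = 1
  · exact ⟨1, one_mem _, 1, one_mem _, b, s.om bo.s1.mB hb b2, by simp⟩
  obtain ⟨v, hv, a⟩ := s.act bo.symm hb
  obtain ⟨w, hw, z, hz, e⟩ := s.vb_eq bw bo hv hb b2 a.2
  exact ⟨v, hv, w, hw, z, hz, by rw [← e, ← mul_assoc, hv.2.1, one_mul]⟩

end

theorem bowt (h : Sim S A B) (hd : d ∈ Om A) (i : cn d t = t⁻¹) (m : d * t ∈ D S)
    (c : ∀ z ∈ Om B, Commute t z) (t1 : t * t ≠ 1) (t2 : t * t ∈ Om B) : t ∈ Om A ⊔ B := by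
  have x2 := D.sq m
  obtain ⟨X, hX, m⟩ := m
  have cx : ∀ z ∈ Om B, Commute (d * t) z := fun z hz => (h.adj d hd z hz).mul_left (c z hz)
  have e : cn (d * t) d * d = (t * t)⁻¹ := by
    rw [cn, inv_of_sq hd.2.1] at i
    rw [cn, mul_inv_rev, inv_of_sq hd.2.1, i, mul_assoc, mul_assoc, hd.2.1, mul_one, mul_inv_rev]
  have n : ¬ Commute (d * t) d := fun q => t1 (by
    rwa [cn_eq q, hd.2.1, eq_comm, inv_eq_one] at e)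
  have sm : Sim S X B := ⟨hX, h.mB, s.adj_of hX h.mB m.1 (fun q => n (by simp [q])) (s.C_Om h.mB cx),
    fun q => n (h.adj d hd _ (s.np bw hX h.mB q ▸ m)).symm⟩
  exact (mul_mem_cancel_left (mem_sup_left hd)).1
    (s.leJ bw ⟨h, sm, d, hd, _, m, e ▸ inv_mem t2, n⟩ m)

variable (bo : Bow S B A₁ A₂)
include bo

theorem line_of (hX : X ∈ S) (hx : x ∈ Om X) (n : x ∉ B) (m : x ∈ Om A₁ ⊔ B) :
    Om X ≤ Om A₁ ⊔ Om B ∨ Om X ≤ Om A₂ ⊔ Om B :=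
  (s.invol bw bo m hx.2.1).imp (s.ptQ bw bo.s1 hX hx.1 · n) (s.ptQ bw bo.s2 hX hx.1 · n)

/-- there are only two lines through `B` -/
theorem twoL (h : Sim S A B) : Om A ≤ Om A₁ ⊔ Om B ∨ Om A ≤ Om A₂ ⊔ Om B := by
  have hB := h.mB
  obtain ⟨d, hd, d1⟩ := s.exOm bo.s1.mA
  obtain ⟨b, hb, b2, -, i⟩ := s.act' bo.symm hd d1
  obtain ⟨d', hd', d1', n⟩ : ∃ d' ∈ Om A, d' ≠ 1 ∧ cn d' b ≠ b⁻¹ := by
    obtain ⟨x, hx, y, hy, x2, y2, x1, y1, ne⟩ := s.rk A h.mA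
    by_cases e : cn x b = b⁻¹
    · exact ⟨y, s.om h.mA hy y2, y1, fun e' => ne (s.uniq h (s.om h.mA hx x2) (s.om h.mA hy y2) hb b2
        (e.trans e'.symm))⟩
    · exact ⟨x, s.om h.mA hx x2, x1, e⟩
  have m1 : d ∈ D S := ⟨_, bo.s1.mA, hd⟩
  have m2 : d' ∈ D S := ⟨_, h.mA, hd'⟩
  have r := fun m => (s.refl_D (M := ⊤) m1 m2 trivial trivial m).1
  have i1 := cn_dih hd.2.1 hd'.2.1
  have i2 := cn_dih' hd.2.1 hd'.2.1
  have e0 : d' = d * (d * d') := by rw [← mul_assoc, hd.2.1, one_mul]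
  have cZ : ∀ z ∈ Om B, Commute (d * d') z := fun z hz => (bo.s1.adj d hd z hz).mul_left (h.adj d' hd' z hz)
  obtain ⟨z, hz, q⟩ := s.kB h cZ hb
  have z1 : z ≠ 1 := by
    rintro rfl
    exact n (by rw [← cn_inj (g := d), ← mul_cn, q, cn_inv, i, mul_one, inv_inv])
  generalize d * d' = g at *
  have ev : ∀ n : ℕ, cn (g ^ n) b = b → ∃ k, n = k + k := fun n e => by
    have : cn (g ^ n) b = b * z ^ n := by
      clear e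
      induction n with
      | zero => simp
      | succ n ih => rw [pow_succ', mul_cn, ih, cn_mul, q, cn_pow, cn_eq (cZ z hz), pow_succ', mul_assoc]
    rw [e, left_eq_mul] at this
    rcases Nat.even_or_odd' n with ⟨k, e | e⟩
    · exact ⟨k, by omega⟩
    · exact absurd (by rwa [e, pow_succ, pow_mul, pow_two, hz.2.1, one_pow, one_mul] at this) z1
  obtain ⟨k, ek⟩ := ev (orderOf g) (by rw [pow_orderOf_eq_one, one_cn])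
  have k0 := orderOf_pos g
  have t2 : g ^ k * g ^ k = 1 := by rw [← pow_add, ← ek, pow_orderOf_eq_one]
  have t1 : g ^ k ≠ 1 := pow_ne_one_of_lt_orderOf (by omega) (by omega)
  have ip : ∀ {x : G} (n : ℕ), cn x g = g⁻¹ → cn x (g ^ n) = (g ^ n)⁻¹ := fun n e => by
    rw [cn_pow, e, inv_pow]
  have c1 : Commute d (g ^ k) := comm_of_cn (by rw [ip k i1, inv_of_sq t2])
  have c2 : Commute d' (g ^ k) := comm_of_cn (by rw [ip k i2, inv_of_sq t2])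
  have tD := s.mulD bw m1 (r k) ((Commute.refl d).mul_right c1)
  rw [← mul_assoc, hd.2.1, one_mul] at tD
  have q1 := s.notri bw bo.s1 tD hd d1 c1.symm fun z hz => (cZ z hz).pow_left k
  have q2 := s.notri bw h tD hd' d1' c2.symm fun z hz => (cZ z hz).pow_left k
  by_cases tB : g ^ k ∈ B
  swap
  · obtain ⟨v, hv, y, hy, e⟩ := (s.memQ h).1 q2
    rw [e] at q1 tB
    exact Or.inl (s.ptQ bw bo.s1 h.mA hv.1 ((mul_mem_cancel_right (mem_sup_right hy)).1 q1)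
      fun e => tB (mul_mem e hy.1))
  obtain ⟨l, rfl⟩ := ev k (cn_eq (s.comm B hB _ tB b hb))
  have tO := s.om hB tB t2
  rw [pow_add] at t1 tO
  have j1 := s.bowt bw bo.s1 hd (ip l i1) (r l) (fun z hz => (cZ z hz).pow_left l) t1 tO
  obtain ⟨v, hv, c, hc, e⟩ := (s.memJ h).1 (s.bowt bw h hd' (ip l i2)
    (by rw [e0, mul_assoc, ← pow_succ']; exact r _) (fun z hz => (cZ z hz).pow_left l) t1 tO)
  by_cases v1 : v = 1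
  swap
  · exact s.line_of bw bo h.mA hv (fun e => v1 ((s.sp h).dis v hv.1 e))
      ((mul_mem_cancel_right (mem_sup_right hc)).1 (e ▸ j1))
  rw [v1, one_mul] at e
  have j2 := ip l i1
  have j3 := ip l i2
  rw [e] at t1 j2 j3 tO
  have := s.ad bo.symm d hd d hd c hc b hb t1 b2 j2 i
  rw [hd.2.1, one_cn, eq_inv_iff_mul_eq_one, sq_mul (s.comm B hB c hc b hb)] at this
  exact absurd (s.inv_same hB (h.adj d' hd') hc hb (eq_of_mul_eq_one tO.2.1 this) j3) n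

theorem two_pt (h : Sim S A B) : ∃ b ∈ B, cj(b, A₁) = A ∨ cj(b, A₂) = A := by
  obtain ⟨v, hv, v1⟩ := s.exOm h.mA
  have n : v ∉ B := fun e => v1 ((s.sp h).dis v hv.1 e)
  rcases s.twoL bw bo h with e | e
  · exact (s.pt bw bo.s1 h.mA hv.1 (e hv) n).imp fun _ e => ⟨e.1, Or.inl e.2⟩
  · exact (s.pt bw bo.s2 h.mA hv.1 (e hv) n).imp fun _ e => ⟨e.1, Or.inr e.2⟩

theorem cJ (hx : x ∈ 𝐂[Om A₁ ⊔ B]) : ∃ z ∈ Om B, ∃ e ∈ 𝐂[A₁] ⊓ 𝐂[B], x = z * e := by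
  obtain ⟨v, hv, v1⟩ := s.exOm bo.s1.mA
  exact s.cent bo.s1 (centralizer_anti le_sup_right hx) hv v1 (mem_C.1 hx v (mem_sup_left hv))

theorem E_le : 𝐂[A₁] ⊓ 𝐂[B] ≤ 𝐂[A₂] ⊓ 𝐂[B] := fun x hx => by
  obtain ⟨h, r⟩ := s.rot (s.sq bw) bo.s1
  obtain ⟨b, hb, q⟩ := s.hfix bw bo r
  have : x ∈ 𝐂[Om A₁ ⊔ B] := centralizer_sup (Om A₁) B ▸
    ⟨centralizer_anti (Q := Om A₁) (fun _ h => h.1) hx.1, hx.2⟩
  obtain ⟨z, hz, e, he, rfl⟩ := s.cJ bw bo.symm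
    (centralizer_anti (sup_le (s.leJ bw bo) le_sup_right) this)
  have he' : cn h e ∈ 𝐂[A₂] ⊓ 𝐂[B] := E_pt hb ⟨by
    rw [q, centralizer_cj]; exact cn_mem_cj.2 he.1, cn_mem (normalizer_le_normalizer_centralizer B r.nB) he.2⟩
  obtain ⟨a, ha, a1⟩ := s.exN bo.s2.mA
  have q' := r.cE hx
  rw [cn_mul] at q'
  have := s.fr bo.s2 ha a1 (mul_mem (inv_mem hz) (cn_Om r.nB hz)).1 (by
    rw [show z⁻¹ * cn h z = e * (cn h e)⁻¹ by rw [eq_mul_inv_of_mul_eq q']; group]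
    exact (mem_C.1 (mul_mem he (inv_mem he')).1 a ha).symm)
  rwa [r.fpf z hz (inv_mul_eq_one.1 this).symm, one_mul]

theorem E_bot (hx : x ∈ 𝐂[A₁] ⊓ 𝐂[B]) : x = 1 := by
  have hB := bo.s1.mB
  set R := pCoreOf 2 𝐍[B]
  have nE : 𝐍[B] ≤ 𝐍[𝐂[A₁] ⊓ 𝐂[B]] := fun m hm => mem_N fun e he => by
    obtain ⟨b, hb, q⟩ := s.two_pt bw bo (s.sim_cj' bo.s1 hm)
    have h1 := cn_mem_cj (g := m) |>.2 he.1
    have h2 := cn_mem (normalizer_le_normalizer_centralizer B hm) he.2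
    rw [← centralizer_cj] at h1
    rcases q with q | q
    exacts [E_pt hb ⟨q ▸ h1, h2⟩, s.E_le bw bo.symm (E_pt hb ⟨q ▸ h1, h2⟩)]
  have h0 : 𝐂[A₁] ⊓ 𝐂[B] ⊓ R = ⊥ := by
    by_contra n
    obtain ⟨a, ha, a2⟩ := s.four A₁ bo.s1.mA
    exact bo.s1.nc (s.com_of_four bo.s1.mA hB ha a2 (s.max B hB _ ((isPGroup_pCoreOf 2 _).to_le inf_le_right)
      n (le_normalizer_inf nE (le_normalizer_pCoreOf 2 _)) (centralizer_le_normalizer' _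
        (mem_C.2 fun e he => (mem_C.1 he.1.1 a ha).symm))))
  refine mem_bot.1 (h0.le ⟨hx, s.ch B hB (mem_C.2 fun r hr => comm_of_cn (mul_inv_eq_one.1 (mem_bot.1
    (h0.le (mem_inf.2 ⟨?_, mul_mem (cn_mem (le_normalizer_pCoreOf 2 _
      (centralizer_le_normalizer' B hx.2)) hr) (inv_mem hr)⟩)))))⟩)
  rw [cn_swap]
  exact mul_mem hx (inv_mem (cn_mem (nE (pCoreOf_le 2 _ hr)) hx))

theorem cJ' (hx : x ∈ 𝐂[Om A₁ ⊔ B]) : x ∈ Om B := by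
  obtain ⟨z, hz, e, he, rfl⟩ := s.cJ bw bo hx
  rwa [s.E_bot bw bo he, mul_one]

/-- an element centralizing `Z` and fixing the first line acts on it like an involution of `A₂` -/
theorem actL (c : ∀ z ∈ Om B, Commute x z) (hv : v ∈ Om A₁) (v1 : v ≠ 1) (m : cn x v ∈ Om A₁ ⊔ Om B) :
    ∃ w ∈ Om A₂, ∀ u ∈ Om A₁, Commute (w * x) u := by
  obtain ⟨v', hv', z, hz, q⟩ := (s.memQ bo.s1).1 m
  obtain ⟨b, hb, b2⟩ := s.four B bo.s1.mB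
  obtain rfl := s.uniq bo.s1 hv hv' hb b2 (by
    rw [← s.kcn bo.s1 c (bo.s1.adj v hv) hb, q, mul_cn, cn_eq (hz.2.2 b hb)])
  obtain ⟨b, hb, q'⟩ := s.cover (s.sq bw) bo.s1 hv v1 hz
  obtain ⟨w, hw, a⟩ := s.act bo hb
  refine ⟨w, hw, s.cent_Om bo.s1 (s.mem_N_of bo.s1.mA hv.1 v1 (comm_of_cn ?_))
    fun z hz => (bo.s2.adj w hw z hz).mul_left (c z hz)⟩
  rw [mul_cn, q, ← q', a.1 v hv, cn_invol hw.2.1]

theorem nQ (hv : v ∈ Om A₁) (m : v ∈ Om A₂ ⊔ Om B) : v = 1 := by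
  obtain ⟨w, hw, w1⟩ := s.exOm bo.s2.mA
  exact s.faith bo.symm hv hw w1 (s.commQ bo.s2 m (mem_sup_left hw))

theorem cQ (c : ∀ z ∈ Om B, Commute x z) (c' : ∀ w ∈ Om A₂, Commute x w) : x ∈ Om A₂ ⊔ Om B := by
  obtain ⟨v, hv, v1⟩ := s.exOm bo.s1.mA
  obtain ⟨w, hw, c1⟩ := s.actL bw bo c hv v1 (((s.twoL bw bo (s.sim_cj' bo.s1 (s.C_Om bo.s1.mB c))).imp
    (· (cn_mem_Om hv)) (· (cn_mem_Om hv))).resolve_right fun m => v1 (s.nQ bw bo hv (by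
      obtain ⟨w, hw, z, hz, q⟩ := (s.memQ bo.s2).1 m
      rw [← cn_eq ((c' w hw).mul_right (c z hz)), cn_inj] at q
      exact q ▸ mul_mem_sup hw hz)))
  refine (mul_mem_cancel_left (mem_sup_left hw)).1 (mem_sup_right (s.cJ' bw bo (mem_C.2 fun y hy => ?_)))
  obtain ⟨u, hu, b, hb, rfl⟩ := (s.memJ bo.s1).1 hy
  obtain ⟨v, hv, w', hw', z, hz, rfl⟩ := s.Bgen bw bo hb
  exact (c1 u hu).mul_right ((c1 v hv).mul_right (((hw.2.2 w' hw'.1).mul_left (c' w' hw')).mul_right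
    ((bo.s2.adj w hw z hz).mul_left (c z hz))))

theorem fixQ (c : ∀ z ∈ Om B, Commute x z) (m : x ∈ 𝐍[Om A₁ ⊔ Om B]) : x ∈ Om A₁ ⊔ B := by
  obtain ⟨v, hv, v1⟩ := s.exOm bo.s1.mA
  obtain ⟨w, hw, c1⟩ := s.actL bw bo c hv v1 (cn_mem m (mem_sup_left hv))
  exact (mul_mem_cancel_left (s.leJ bw bo hw)).1 (QJ _ _ (s.cQ bw bo.symm
    (fun z hz => (bo.s2.adj w hw z hz).mul_left (c z hz)) c1))

theorem cQ' (h : Sim S A B) (c : ∀ z ∈ Om B, Commute x z) (c' : ∀ w ∈ Om A, Commute x w) : x * x = 1 := by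
  have key : ∀ {A₁ A₂}, Bow S B A₁ A₂ → Om A ≤ Om A₂ ⊔ Om B → x * x = 1 := fun {A₁ A₂} bo e => by
    obtain ⟨v, hv, v1⟩ := s.exOm h.mA
    obtain ⟨w, hw, z, hz, q⟩ := (s.memQ bo.s2).1 (e hv)
    refine s.sqQ bo.s2 (s.cQ bw bo c (s.cent_Om bo.s2 (s.mem_N_of bo.s2.mA hw.1 ?_ ?_) c))
    · rintro rfl
      exact v1 ((s.sp h).dis v hv.1 (by simpa [q] using hz.1))
    · simpa [q] using (c' v hv).mul_right (c z hz).inv_right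
  exact (s.twoL bw bo h).elim (key bo.symm) (key bo)

end Sys

end Cfsg.Agent.TIB
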